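import Cfsg.Agent.H56.RG.Dich

/-!
# S3509: the roots of `E₆` are conjugate (helper56)
-/

set_option autoImplicit false
set_option linter.unusedSectionVars false

namespace Cfsg.Agent.H56.RG.E6

open CoxeterSystem Cfsg Cfsg.Lie Cfsg.Lie.ChevalleyDatum
open Cfsg.Agent.ChevalleyStructure Cfsg.Agent.ChevalleyStructure.Elts Cfsg.Agent.ChevalleyStructure.CoxeterGeom
  Cfsg.Agent.ChevalleyStructure.CoxeterGeomTypes Cfsg.Agent.ChevalleyStructure.NPerm
open Cfsg.Agent.Tits.Roots Cfsg.Agent.Tits.Core Cfsg.Agent.Nodes Cfsg.Agent.Nodes.Reps Cfsg.Agent.Nodes.BNOf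
  Cfsg.Agent.Nodes.RGDChev Cfsg.Agent.Nodes.Bruhat
open Cfsg.Agent.H378.Eng Cfsg.Agent.H56.RG
open Cfsg.Agent.H378.E6Dat (dat)

variable {M : CoxeterMatrix (Fin 6)} (hp : IsType chevE6 6 M)

include hp in
/-- reflections -/
theorem exists_refl {c : Fin 6 → ℤ} (hc : IsRoot M.toCoxeterSystem hp.isCartan c) :
    ∃ w : M.Group, ∀ x, rep M.toCoxeterSystem hp.isCartan w x = x - B6 x c • c := by
  have H := sl6 hp
  obtain ⟨r, hr, h⟩ := root_iff_g hp hc
  obtain ⟨w, hw⟩ := Cfsg.Agent.H378.Eng.exists_elt M.toCoxeterSystem hp.isCartan (T := dat) rfl Cfsg.Agent.H378.WL.E6.row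
    Cfsg.Agent.H378.E6Dat.chkR r (by rw [len]; exact hr)
  refine ⟨w, fun x => ?_⟩
  have h3 : rep M.toCoxeterSystem hp.isCartan w x = x - B6 x (g r) • g r := by
    rw [B_g hp hr]
    exact hw x
  rw [h3]
  rcases h with rfl | rfl
  · rfl
  · rw [H.neg', neg_smul_neg]

include hp in
theorem conj_one {a b : Fin 6 → ℤ} (ha : IsRoot M.toCoxeterSystem hp.isCartan a)
    (hb : IsRoot M.toCoxeterSystem hp.isCartan b) (h : B6 a b = 1) :
    ∃ w : M.Group, rep M.toCoxeterSystem hp.isCartan w a = b := by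
  have H := sl6 hp
  obtain ⟨w, hw⟩ := exists_refl hp (H.sub a b ha hb h)
  refine ⟨w, ?_⟩
  rw [hw, H.subr, H.two a ha, h]
  module

include hp in
theorem conj_ne {a b : Fin 6 → ℤ} (ha : IsRoot M.toCoxeterSystem hp.isCartan a)
    (hb : IsRoot M.toCoxeterSystem hp.isCartan b) (h : B6 a b ≠ 0) :
    ∃ w : M.Group, rep M.toCoxeterSystem hp.isCartan w a = b := by
  have H := sl6 hp
  have hn : ∀ b, IsRoot M.toCoxeterSystem hp.isCartan b → ∃ w : M.Group, rep M.toCoxeterSystem hp.isCartan w (-b) = b := by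
    intro b hb
    obtain ⟨w, hw⟩ := exists_refl hp hb
    refine ⟨w, ?_⟩
    rw [hw, H.neg, H.two b hb]
    module
  rcases H.rng a b ha hb with h1 | h1 | h1 | h1 | h1
  · exact ⟨1, by rw [map_one, Module.End.one_apply]; exact h1⟩
  · rw [h1]; exact hn b hb
  · exact absurd h1 h
  · exact conj_one hp ha hb h1
  · obtain ⟨w, hw⟩ := conj_one hp ha hb.neg (by rw [H.neg', h1]; rfl)
    obtain ⟨v, hv⟩ := hn b hb
    exact ⟨v * w, by rw [rep_mul_apply, hw, hv]⟩

theorem chain_ok : ∀ r : Fin 36, (r : ℕ) = 35 ∨ adj r 35 = true ∨ ∃ u : Fin 36, adj r u = true ∧ adj u 35 = true := by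
  decide +kernel

theorem vec35 : vec chevE6 6 (chevE6.nroots - 1) = g 35 := by
  funext i
  have h := gam35 i
  exact h.symm

include hp in
/-- **The roots are conjugate.** -/
theorem long_E6 {β : Fin 6 → ℤ} (hβ : IsRoot M.toCoxeterSystem hp.isCartan β) :
    ∃ w : M.Group, β = rep M.toCoxeterSystem hp.isCartan w (vec chevE6 6 (chevE6.nroots - 1)) := by
  have H := sl6 hp
  rw [vec35]
  have key : ∀ r : ℕ, r < 36 → ∃ w : M.Group, rep M.toCoxeterSystem hp.isCartan w (g 35) = g r := by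
    intro r hr
    have h35 : (35 : ℕ) < 36 := by decide
    have hst : ∀ r s : ℕ, r < 36 → s < 36 → adj r s = true → ∃ w : M.Group, rep M.toCoxeterSystem hp.isCartan w (g s) = g r := by
      intro r s hr hs h
      have hne := ((adj_spec hr hs).1.1 h).1
      have h1 := (B_adj hp hr hs hne).2 h
      rw [H.symm] at h1
      exact conj_ne hp (root_g hp hs) (root_g hp hr) h1
    rcases chain_ok ⟨r, hr⟩ with h | h | ⟨u, h1, h2⟩
    · change r = 35 at h
      subst h
      exact ⟨1, by rw [map_one, Module.End.one_apply]⟩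
    · exact hst r 35 hr h35 h
    · obtain ⟨w, hw⟩ := hst r u hr u.2 h1
      obtain ⟨v, hv⟩ := hst u 35 u.2 h35 h2
      exact ⟨w * v, by rw [rep_mul_apply, hv, hw]⟩
  obtain ⟨r, hr, h⟩ := root_iff_g hp hβ
  obtain ⟨w, hw⟩ := key r hr
  rcases h with h | h
  · exact ⟨w, by rw [h, hw]⟩
  · obtain ⟨v, hv⟩ := conj_ne hp (root_g hp hr) (root_g hp hr).neg (by rw [H.neg', H.two _ (root_g hp hr)]; decide)
    exact ⟨v * w, by rw [h, rep_mul_apply, hw, hv]⟩

end Cfsg.Agent.H56.RG.E6
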