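import Cfsg.Agent.H56.RG.TabE6
import Cfsg.Agent.H931.KC.Theta

/-!
# S3509: the centralisers in `E₆`, the dichotomy for sets of roots (helper56)

`dich_abs` : a closed symmetric set `S` of roots given by Kac coordinates has a highest root of a component of rank `≥ 2`
fixed by all automorphisms (of the roots, of `S` and of its positive part), or is small (`|S| + rk ≤ 16`, `rk ≤ 4`), or has
type `A₁ + 2 A₂` or `3 A₂`.
-/

set_option autoImplicit false
set_option linter.unusedSectionVars false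

namespace Cfsg.Agent.H56.RG.E6

open CoxeterSystem Cfsg Cfsg.Lie Cfsg.Lie.ChevalleyDatum
open Cfsg.Agent.ChevalleyStructure Cfsg.Agent.ChevalleyStructure.Elts Cfsg.Agent.ChevalleyStructure.CoxeterGeom
  Cfsg.Agent.ChevalleyStructure.CoxeterGeomTypes Cfsg.Agent.ChevalleyStructure.NPerm
open Cfsg.Agent.Tits.Roots Cfsg.Agent.Tits.Core Cfsg.Agent.Nodes Cfsg.Agent.Nodes.Reps Cfsg.Agent.Nodes.BNOf
  Cfsg.Agent.Nodes.RGDChev Cfsg.Agent.Nodes.Bruhat
open Cfsg.Agent.H378.Eng Cfsg.Agent.H56.RG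
open Cfsg.Agent.H129.TorusChar Cfsg.Agent.H129.WData
open Cfsg.Agent.H378.E6Dat (dat)

variable {M : CoxeterMatrix (Fin 6)} (hp : IsType chevE6 6 M)

/-- the automorphisms of the lattice preserving the roots, `S` and its positive part -/
structure TAut (S : Set (Fin 6 → ℤ)) (θ : (Fin 6 → ℤ) ≃+ (Fin 6 → ℤ)) : Prop where
  root : ∀ a, IsRoot M.toCoxeterSystem hp.isCartan (θ a) ↔ IsRoot M.toCoxeterSystem hp.isCartan a
  mem : ∀ a, θ a ∈ S ↔ a ∈ S
  pos : ∀ a ∈ S, 0 ≤ a → 0 ≤ θ a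

/-- a root `β ≥ 0` of `S`, highest, fixed by all automorphisms -/
structure Tp (S : Set (Fin 6 → ℤ)) (β : Fin 6 → ℤ) : Prop where
  mem : β ∈ S
  nonneg : 0 ≤ β
  max : ∀ a ∈ S, 0 ≤ a → ¬ IsRoot M.toCoxeterSystem hp.isCartan (β + a)
  fix : ∀ θ, TAut hp S θ → θ β = β

include hp in
theorem g_inj {r s : ℕ} (hr : r < 36) (hs : s < 36) (h : g r = g s) : r = s := by
  rcases (adj_spec hr hs).2 with h1 | h1
  · exact h1
  · exfalso
    have h2 := B_gg hp hr (s := s)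
    rw [← h, (sl6 hp).two _ (root_g hp hr)] at h2
    omega

include hp in
theorem g_ne_neg {r s : ℕ} (hr : r < 36) (hs : s < 36) (h : g r = - g s) : False := by
  apply (root_g hp hr).ne_zero
  funext i
  have h1 := g_nonneg hr i
  have h2 := g_nonneg hs i
  have h3 := congrFun h i
  simp only [Pi.zero_apply, Pi.neg_apply] at h1 h2 h3 ⊢
  omega

include hp in
/-- the values of the form -/
theorem B_adj {r s : ℕ} (hr : r < 36) (hs : s < 36) (hrs : r ≠ s) : B6 (g r) (g s) ≠ 0 ↔ adj r s = true := by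
  rw [(adj_spec hr hs).1, (sl6 hp).symm, B_gg hp hr]
  exact ⟨fun h => ⟨hrs, h⟩, fun h => h.2⟩

section abs

variable {S : Set (Fin 6 → ℤ)} {w : M.Group} {P Q : List ℕ}

/-- the roots of `S` -/
def ME (w : M.Group) (P : List ℕ) (a : Fin 6 → ℤ) : Prop :=
  ∃ r ∈ P, a = rep M.toCoxeterSystem hp.isCartan w (g r) ∨ a = -rep M.toCoxeterSystem hp.isCartan w (g r)

theorem ME.neg {a : Fin 6 → ℤ} (h : ME hp w P a) : ME hp w P (-a) := by
  obtain ⟨r, hr, h | h⟩ := h
  · exact ⟨r, hr, Or.inr (by rw [h])⟩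
  · exact ⟨r, hr, Or.inl (by rw [h, neg_neg])⟩

theorem ME.B_ne {r s : ℕ} (hr : r < 36) (hs : s < 36) (hrs : r ≠ s) {a b : Fin 6 → ℤ}
    (ha : a = rep M.toCoxeterSystem hp.isCartan w (g r) ∨ a = -rep M.toCoxeterSystem hp.isCartan w (g r))
    (hb : b = rep M.toCoxeterSystem hp.isCartan w (g s) ∨ b = -rep M.toCoxeterSystem hp.isCartan w (g s)) :
    B6 a b ≠ 0 ↔ adj r s = true := by
  have H := sl6 hp
  rw [← B_adj hp hr hs hrs, ← H.inv w (g r) (g s)]
  rcases ha with rfl | rfl <;> rcases hb with rfl | rfl <;> simp only [H.neg, H.neg', neg_neg, ne_eq, neg_eq_zero]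

theorem ME.B_self {r : ℕ} (hr : r < 36) {a b : Fin 6 → ℤ}
    (ha : a = rep M.toCoxeterSystem hp.isCartan w (g r) ∨ a = -rep M.toCoxeterSystem hp.isCartan w (g r))
    (hb : b = rep M.toCoxeterSystem hp.isCartan w (g r) ∨ b = -rep M.toCoxeterSystem hp.isCartan w (g r)) :
    B6 a b ≠ 0 ∧ (a = b ∨ a = -b) := by
  have H := sl6 hp
  have h2 : B6 (rep M.toCoxeterSystem hp.isCartan w (g r)) (rep M.toCoxeterSystem hp.isCartan w (g r)) = 2 :=
    H.two _ ((root_g hp hr).act w)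
  constructor
  · rcases ha with rfl | rfl <;> rcases hb with rfl | rfl <;> simp only [H.neg, H.neg', neg_neg, h2] <;> decide
  · rcases ha with rfl | rfl <;> rcases hb with rfl | rfl
    · exact Or.inl rfl
    · exact Or.inr (neg_neg _).symm
    · exact Or.inr rfl
    · exact Or.inl rfl

variable (hS : ∀ a, a ∈ S ↔ ME hp w P a) (hP : ∀ r ∈ P, r < 36)

include hS hP in
theorem root_S {a : Fin 6 → ℤ} (ha : a ∈ S) : IsRoot M.toCoxeterSystem hp.isCartan a := by
  obtain ⟨r, hr, h | h⟩ := (hS a).1 ha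
  · rw [h]; exact (root_g hp (hP r hr)).act w
  · rw [h]; exact ((root_g hp (hP r hr)).act w).neg

include hS hP in
/-- the number of roots -/
theorem ncard_S (hnd : P.Nodup) : S.ncard = 2 * P.length := by
  set f : ℕ → Fin 6 → ℤ := fun r => rep M.toCoxeterSystem hp.isCartan w (g r) with hf
  have hinj := rep_injective_apply M.toCoxeterSystem hp.isCartan w
  have h1 : S = f '' {r | r ∈ P} ∪ (fun r => - f r) '' {r | r ∈ P} := by
    ext a
    rw [hS a]
    constructor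
    · rintro ⟨r, hr, h | h⟩
      · exact Or.inl ⟨r, hr, h.symm⟩
      · exact Or.inr ⟨r, hr, h.symm⟩
    · rintro (⟨r, hr, h⟩ | ⟨r, hr, h⟩)
      · exact ⟨r, hr, Or.inl h.symm⟩
      · exact ⟨r, hr, Or.inr h.symm⟩
  have h2 : Set.InjOn f {r | r ∈ P} := fun r hr s hs h => g_inj hp (hP r hr) (hP s hs) (hinj h)
  have h3 : Set.InjOn (fun r => - f r) {r | r ∈ P} := fun r hr s hs h => h2 hr hs (neg_injective h)
  have h4 : ({r | r ∈ P} : Set ℕ).ncard = P.length := by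
    have e : ({r | r ∈ P} : Set ℕ) = ↑P.toFinset := by
      ext r
      simp
    rw [e, Set.ncard_coe_finset, List.toFinset_card_of_nodup hnd]
  have hfin : ({r | r ∈ P} : Set ℕ).Finite := P.finite_toSet
  rw [h1, Set.ncard_union_eq ?_ (hfin.image _) (hfin.image _), Set.ncard_image_of_injOn h2, Set.ncard_image_of_injOn h3,
    h4, two_mul]
  rw [Set.disjoint_left]
  rintro _ ⟨r, hr, rfl⟩ ⟨s, hs, h⟩
  have h5 : rep M.toCoxeterSystem hp.isCartan w (-g s) = rep M.toCoxeterSystem hp.isCartan w (g r) := by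
    rw [map_neg]
    exact h
  exact g_ne_neg hp (hP r hr) (hP s hs) (hinj h5).symm

variable (hQ : ∀ r, r ∈ Q ↔ r ∈ P ∧ ∃ s ∈ P, adj r s = true)

include hS hP hQ in
/-- the union of the components of rank `≥ 2` -/
theorem mem_Psi {a : Fin 6 → ℤ} : ME hp w Q a ↔ a ∈ S ∧ ∃ b ∈ S, a ≠ b ∧ a ≠ -b ∧ B6 a b ≠ 0 := by
  constructor
  · rintro ⟨r, hr, h⟩
    obtain ⟨h1, s, hs, h2⟩ := (hQ r).1 hr
    have hr6 := hP r h1
    have hs6 := hP s hs
    have hrs := ((adj_spec hr6 hs6).1.1 h2).1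
    have hb : rep M.toCoxeterSystem hp.isCartan w (g s) ∈ S := (hS _).2 ⟨s, hs, Or.inl rfl⟩
    have hB : B6 a (rep M.toCoxeterSystem hp.isCartan w (g s)) ≠ 0 := (ME.B_ne hp hr6 hs6 hrs h (Or.inl rfl)).2 h2
    have hinj := rep_injective_apply M.toCoxeterSystem hp.isCartan w
    refine ⟨(hS a).2 ⟨r, h1, h⟩, _, hb, ?_, ?_, hB⟩
    · intro e
      rcases h with h | h
      · exact hrs (g_inj hp hr6 hs6 (hinj (h.symm.trans e)))
      · rw [e, ← map_neg] at h
        exact g_ne_neg hp hs6 hr6 (hinj h)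
    · intro e
      rcases h with h | h
      · rw [e, ← map_neg] at h
        exact g_ne_neg hp hr6 hs6 (hinj h).symm
      · rw [e] at h
        exact hrs (g_inj hp hr6 hs6 (hinj (neg_injective h)).symm)
  · rintro ⟨ha, b, hb, h1, h2, h3⟩
    obtain ⟨r, hr, h4⟩ := (hS a).1 ha
    obtain ⟨s, hs, h5⟩ := (hS b).1 hb
    have hrs : r ≠ s := by
      rintro rfl
      rcases (ME.B_self hp (hP r hr) h4 h5).2 with h6 | h6
      · exact h1 h6
      · exact h2 h6
    exact ⟨r, (hQ r).2 ⟨hr, s, hs, (ME.B_ne hp (hP r hr) (hP s hs) hrs h4 h5).1 h3⟩, h4⟩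

/-- automorphisms preserve non-orthogonality -/
theorem TAut.B_ne (hS' : ∀ a ∈ S, IsRoot M.toCoxeterSystem hp.isCartan a) {θ : (Fin 6 → ℤ) ≃+ (Fin 6 → ℤ)}
    (hθ : TAut hp S θ) {a b : Fin 6 → ℤ} (ha : a ∈ S) (hb : b ∈ S) (h1 : a ≠ b) (h2 : a ≠ -b) (h3 : B6 a b ≠ 0) :
    B6 (θ a) (θ b) ≠ 0 := by
  have H := sl6 hp
  have ra := hS' a ha
  have rb := hS' b hb
  rcases H.rng a b ra rb with h | h | h | h | h
  · exact absurd h h1
  · exact absurd h h2
  · exact absurd h h3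
  · have h4 := (hθ.root _).2 (H.sub a b ra rb h)
    rw [map_sub] at h4
    rw [H.of_sub ((hθ.root _).2 ra) ((hθ.root _).2 rb) h4]
    decide
  · have h4 := (hθ.root _).2 (H.root_add ra rb h)
    rw [map_add] at h4
    rw [H.of_add ((hθ.root _).2 ra) ((hθ.root _).2 rb) h4]
    decide

/-- the maximal roots are mapped to maximal roots -/
theorem TAut.max (hS' : ∀ a ∈ S, IsRoot M.toCoxeterSystem hp.isCartan a) (hneg : ∀ a ∈ S, -a ∈ S)
    {θ : (Fin 6 → ℤ) ≃+ (Fin 6 → ℤ)} (hθ : TAut hp S θ) {β : Fin 6 → ℤ}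
    (hm : ∀ a ∈ S, 0 ≤ a → ¬ IsRoot M.toCoxeterSystem hp.isCartan (β + a)) :
    ∀ a ∈ S, 0 ≤ a → ¬ IsRoot M.toCoxeterSystem hp.isCartan (θ β + a) := by
  intro a ha h0 hr
  have h1 : θ.symm a ∈ S := (hθ.mem _).1 (by rw [θ.apply_symm_apply]; exact ha)
  have h2 : 0 ≤ θ.symm a := by
    rcases (hS' _ h1).pos_or_neg with h | h
    · exact h
    · exfalso
      have h3 : 0 ≤ -θ.symm a := neg_nonneg.2 h
      have h4 := hθ.pos _ (hneg _ h1) h3
      rw [map_neg, θ.apply_symm_apply] at h4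
      exact (hS' a ha).not_pos_neg h0 (neg_nonneg.1 h4)
  refine hm _ h1 h2 ?_
  rw [← hθ.root, map_add, θ.apply_symm_apply]
  exact hr

include hS hP hQ in
/-- **The highest root of the components of rank `≥ 2`.** -/
theorem top_Q (hneg : ∀ a ∈ S, -a ∈ S)
    (hadd : ∀ a ∈ S, ∀ b ∈ S, IsRoot M.toCoxeterSystem hp.isCartan (a + b) → a + b ∈ S) (hne : Q ≠ [])
    (hcon : ∀ r ∈ Q, ∀ s ∈ Q, r = s ∨ adj r s = true ∨ ∃ u ∈ Q, adj r u = true ∧ adj u s = true) :
    ∃ β, Tp hp S β ∧ ∃ b ∈ S, IsRoot M.toCoxeterSystem hp.isCartan (β - b) := by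
  have H := sl6 hp
  have hSr : ∀ a ∈ S, IsRoot M.toCoxeterSystem hp.isCartan a := fun a => root_S hp hS hP
  have hQP : ∀ r ∈ Q, r < 36 := fun r hr => hP r ((hQ r).1 hr).1
  have hmem := fun a => mem_Psi hp hS hP hQ (a := a)
  obtain ⟨β, hβ, h0, hm, hu⟩ := H.exists_high (S := S) (Ψ := {a | ME hp w Q a}) hSr hneg hadd
    (fun a ha => ((hmem a).1 ha).1) (by
      obtain ⟨r, hr⟩ := List.exists_mem_of_ne_nil Q hne
      exact ⟨_, r, hr, Or.inl rfl⟩) (by
      intro a ha b hb hab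
      by_cases h1 : a = b
      · rw [← h1]; exact ha
      by_cases h2 : a = -b
      · have := ME.neg hp ha
        rwa [h2, neg_neg] at this
      refine (hmem b).2 ⟨hb, a, ((hmem a).1 ha).1, Ne.symm h1, ?_, ?_⟩
      · intro e
        rw [e, neg_neg] at h2
        exact h2 rfl
      · rw [H.symm]
        exact hab) (by
      rintro a ⟨r, hr, ha⟩ b ⟨s, hs, hb⟩
      rcases hcon r hr s hs with h1 | h1 | ⟨u, hu, h1, h2⟩
      · subst h1
        exact Or.inl (ME.B_self hp (hQP r hr) ha hb).1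
      · exact Or.inl ((ME.B_ne hp (hQP r hr) (hQP s hs) ((adj_spec (hQP r hr) (hQP s hs)).1.1 h1).1 ha hb).2 h1)
      · refine Or.inr ⟨_, ⟨u, hu, Or.inl rfl⟩, ?_, ?_⟩
        · exact (ME.B_ne hp (hQP r hr) (hQP u hu) ((adj_spec (hQP r hr) (hQP u hu)).1.1 h1).1 ha (Or.inl rfl)).2 h1
        · exact (ME.B_ne hp (hQP u hu) (hQP s hs) ((adj_spec (hQP u hu) (hQP s hs)).1.1 h2).1 (Or.inl rfl) hb).2 h2)
  obtain ⟨hβS, b, hb, h1, h2, h3⟩ := (hmem β).1 hβ
  refine ⟨β, ⟨hβS, h0, hm, fun θ hθ => ?_⟩, ?_⟩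
  · refine hu (θ β) ?_ (hθ.pos β hβS h0) (hθ.max hp hSr hneg hm)
    refine (hmem _).2 ⟨(hθ.mem β).2 hβS, θ b, (hθ.mem b).2 hb, fun e => h1 (θ.injective e), fun e => h2 ?_,
      hθ.B_ne hp hSr hβS hb h1 h2 h3⟩
    rw [← map_neg] at e
    exact θ.injective e
  · rcases H.rng β b (hSr _ hβS) (hSr _ hb) with h | h | h | h | h
    · exact absurd h h1
    · exact absurd h h2
    · exact absurd h h3
    · exact ⟨b, hb, H.sub β b (hSr _ hβS) (hSr _ hb) h⟩
    · refine ⟨-b, hneg b hb, ?_⟩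
      rw [sub_neg_eq_add]
      exact H.root_add (hSr _ hβS) (hSr _ hb) h

include hS hP hQ in
/-- **The component `A₁`.** -/
theorem top_one (hneg : ∀ a ∈ S, -a ∈ S) {r : ℕ} (hr : r ∈ P) (hrQ : r ∉ Q) (hall : ∀ s ∈ P, s = r ∨ s ∈ Q) :
    ∃ β, Tp hp S β := by
  have H := sl6 hp
  have hSr : ∀ a ∈ S, IsRoot M.toCoxeterSystem hp.isCartan a := fun a => root_S hp hS hP
  have hmem := fun a => mem_Psi hp hS hP hQ (a := a)
  have hQP : ∀ r ∈ Q, r < 36 := fun r hr => hP r ((hQ r).1 hr).1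
  -- the roots of the component
  have hone : ∀ a, a ∈ S → ¬ ME hp w Q a → a = rep M.toCoxeterSystem hp.isCartan w (g r) ∨
      a = -rep M.toCoxeterSystem hp.isCartan w (g r) := by
    intro a ha hna
    obtain ⟨s, hs, h⟩ := (hS a).1 ha
    rcases hall s hs with h1 | h1
    · rw [h1] at h; exact h
    · exact absurd ⟨s, h1, h⟩ hna
  have hnot : ∀ a, (a = rep M.toCoxeterSystem hp.isCartan w (g r) ∨ a = -rep M.toCoxeterSystem hp.isCartan w (g r)) →
      ¬ ME hp w Q a := by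
    rintro a ha ⟨s, hs, h⟩
    have hinj := rep_injective_apply M.toCoxeterSystem hp.isCartan w
    have hrs : r ≠ s := fun e => hrQ (by rw [e]; exact hs)
    have hr6 := hP r hr
    have hs6 := hQP s hs
    rcases ha with rfl | rfl <;> rcases h with h | h
    · exact hrs (g_inj hp hr6 hs6 (hinj h))
    · rw [← map_neg] at h
      exact g_ne_neg hp hr6 hs6 (hinj h)
    · rw [← map_neg] at h
      exact g_ne_neg hp hs6 hr6 (hinj h).symm
    · exact hrs (g_inj hp hr6 hs6 (hinj (neg_injective h)))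
  obtain ⟨β, hβ, h0⟩ : ∃ β, (β = rep M.toCoxeterSystem hp.isCartan w (g r) ∨
      β = -rep M.toCoxeterSystem hp.isCartan w (g r)) ∧ 0 ≤ β := by
    rcases ((root_g hp (hP r hr)).act w).pos_or_neg with h | h
    · exact ⟨_, Or.inl rfl, h⟩
    · exact ⟨_, Or.inr rfl, neg_nonneg.2 h⟩
  have hβS : β ∈ S := (hS β).2 ⟨r, hr, hβ⟩
  -- orthogonal to the other roots
  have hort : ∀ a ∈ S, a = β ∨ a = -β ∨ B6 β a = 0 := by
    intro a ha
    by_contra hcon
    push Not at hcon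
    refine hnot β hβ ((hmem β).2 ⟨hβS, a, ha, fun e => hcon.1 e.symm, fun e => hcon.2.1 (by rw [e, neg_neg]), hcon.2.2⟩)
  refine ⟨β, hβS, h0, fun a ha _ hra => ?_, fun θ hθ => ?_⟩
  · have h1 := H.of_add (hSr _ hβS) (hSr _ ha) hra
    rcases hort a ha with h | h | h
    · rw [h, H.two _ (hSr _ hβS)] at h1
      exact absurd h1 (by decide)
    · rw [h, add_neg_cancel] at hra
      exact hra.ne_zero rfl
    · rw [h] at h1
      exact absurd h1 (by decide)
  · have h1 : ¬ ME hp w Q (θ β) := by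
      intro h
      obtain ⟨-, b, hb, h2, h3, h4⟩ := (hmem _).1 h
      set b' := θ.symm b with hb'
      have e : θ b' = b := θ.apply_symm_apply b
      have hb'S : b' ∈ S := (hθ.mem _).1 (by rw [e]; exact hb)
      rcases hort b' hb'S with h5 | h5 | h5
      · exact h2 (by rw [← e, h5])
      · exact h3 (by rw [← e, h5, map_neg, neg_neg])
      · -- orthogonality is preserved
        have rb := hSr _ hb
        have rβ := (hθ.root β).2 (hSr _ hβS)
        rcases H.rng (θ β) b rβ rb with h | h | h | h | h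
        · exact h2 h
        · exact h3 h
        · exact h4 h
        · have h6 := H.sub _ _ rβ rb h
          rw [← e, ← map_sub, hθ.root] at h6
          have h7 := H.of_sub (hSr _ hβS) (hSr _ hb'S) h6
          rw [h5] at h7
          exact absurd h7 (by decide)
        · have h6 := H.root_add rβ rb h
          rw [← e, ← map_add, hθ.root] at h6
          have h7 := H.of_add (hSr _ hβS) (hSr _ hb'S) h6
          rw [h5] at h7
          exact absurd h7 (by decide)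
    have h2 := hone _ ((hθ.mem β).2 hβS) h1
    have h3 := hθ.pos β hβS h0
    have h4 : θ β = β ∨ θ β = -β := by
      rcases h2 with h2 | h2 <;> rcases hβ with h5 | h5
      · exact Or.inl (h2.trans h5.symm)
      · exact Or.inr (by rw [h2, h5, neg_neg])
      · exact Or.inr (by rw [h2, h5])
      · exact Or.inl (h2.trans h5.symm)
    rcases h4 with h4 | h4
    · exact h4
    · rw [h4] at h3
      exact absurd (neg_nonneg.1 h3) (fun h => (hSr _ hβS).not_pos_neg h0 h)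

/-- **The dichotomy.** -/
theorem dich_abs (hSr : ∀ a ∈ S, IsRoot M.toCoxeterSystem hp.isCartan a) (hneg : ∀ a ∈ S, -a ∈ S)
    (hadd : ∀ a ∈ S, ∀ b ∈ S, IsRoot M.toCoxeterSystem hp.isCartan (a + b) → a + b ∈ S)
    {c : Fin 6 → ℕ} {c0 : ℕ} (hne : ¬ (c0 = 0 ∧ ∀ i, c i = 0))
    (hc : ∀ a, IsRoot M.toCoxeterSystem hp.isCartan a → 0 ≤ a → (rep M.toCoxeterSystem hp.isCartan w a ∈ S ↔
      (∀ i, a i ≠ 0 → c i = 0) ∨ (c0 = 0 ∧ ∀ i, a i ≠ Cfsg.Agent.H931.KC.hr chevE6 6 i → c i = 0))) :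
    (∃ β, Tp hp S β ∧ ∃ b ∈ S, IsRoot M.toCoxeterSystem hp.isCartan (β - b)) ∨
      (S.ncard + rk c c0 ≤ 16 ∧ rk c c0 ≤ 4) ∨
      (c 3 ≠ 0 ∧ S.ncard = 14 ∧ rk c c0 = 5 ∧ ∃ β, Tp hp S β) ∨
      (c 3 ≠ 0 ∧ S.ncard = 18 ∧ rk c c0 = 6) := by
  obtain ⟨P, Q, hnd, hPm, hQ, hcase⟩ := exists_tab c c0 hne
  have hP : ∀ r ∈ P, r < 36 := fun r hr => ((hPm r).1 hr).1
  have hS : ∀ a, a ∈ S ↔ ME hp w P a := by
    intro a
    constructor
    · intro ha
      have h1 : IsRoot M.toCoxeterSystem hp.isCartan (rep M.toCoxeterSystem hp.isCartan w⁻¹ a) := (hSr a ha).act w⁻¹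
      obtain ⟨r, hr, h2⟩ := root_iff_g hp h1
      have h3 : a = rep M.toCoxeterSystem hp.isCartan w (g r) ∨ a = -rep M.toCoxeterSystem hp.isCartan w (g r) := by
        rcases h2 with h2 | h2
        · left; rw [← h2, rep_apply_inv]
        · right; rw [← map_neg, ← h2, rep_apply_inv]
      refine ⟨r, (hPm r).2 ⟨hr, (hc _ (root_g hp hr) (g_nonneg hr)).1 ?_⟩, h3⟩
      rcases h3 with h3 | h3
      · rw [← h3]; exact ha
      · have := hneg a ha
        rwa [h3, neg_neg] at this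
    · rintro ⟨r, hr, h⟩
      have h1 := (hPm r).1 hr
      have h2 := (hc _ (root_g hp h1.1) (g_nonneg h1.1)).2 h1.2
      rcases h with h | h
      · rw [h]; exact h2
      · rw [h]; exact hneg _ h2
  have hcard := ncard_S hp hS hP hnd
  rcases hcase with h | h | ⟨h1, h2, h3, r, hr, hrQ, h4⟩ | ⟨h1, h2, h3⟩
  · exact Or.inl (top_Q hp hS hP hQ hneg hadd h.1 h.2)
  · exact Or.inr (Or.inl (by rw [hcard]; exact h))
  · refine Or.inr (Or.inr (Or.inl ⟨h1, by rw [hcard, h2], h3, top_one hp hS hP hQ hneg hr hrQ h4⟩))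
  · exact Or.inr (Or.inr (Or.inr ⟨h1, by rw [hcard, h2], h3⟩))

end abs

end Cfsg.Agent.H56.RG.E6
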