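import Cfsg.Agent.H56.RG.TabE6
import Cfsg.Agent.H931.KC.Theta

/-!
# S3509: the table of `E₆`, matching data (helper56)

`exists_tabM` : as `exists_tab`; in the cases of small type and of type `A₁ + 2 A₂` the induced diagram is a matching `mt7 J` and
the positive roots are the nodes and the sums of the pairs; `ct_ge` : the extended coordinates of an element of prime order.
-/

set_option autoImplicit false
set_option linter.unusedSectionVars false
set_option maxRecDepth 100000

namespace Cfsg.Agent.H56.RG.E6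

open CoxeterSystem Cfsg Cfsg.Lie Cfsg.Lie.ChevalleyDatum
open Cfsg.Agent.ChevalleyStructure Cfsg.Agent.ChevalleyStructure.Elts Cfsg.Agent.ChevalleyStructure.CoxeterGeom
  Cfsg.Agent.ChevalleyStructure.CoxeterGeomTypes Cfsg.Agent.ChevalleyStructure.NPerm
open Cfsg.Agent.Tits.Roots Cfsg.Agent.Tits.Core Cfsg.Agent.Nodes Cfsg.Agent.Nodes.Reps Cfsg.Agent.Nodes.BNOf
  Cfsg.Agent.Nodes.RGDChev Cfsg.Agent.Nodes.Bruhat
open Cfsg.Agent.H378.Eng Cfsg.Agent.H56.RG
open Cfsg.Agent.H129.TorusChar Cfsg.Agent.H129.WData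
open Cfsg.Agent.H378.E6Dat (dat)
open Cfsg.Agent.H931.KC (al ct Kac SJ bb hr)

/-- the code of an extended node -/
def cd : Option (Fin 6) → ℕ
  | none => 6
  | some i => i

/-- the extended node of a code -/
def dc (n : ℕ) : Option (Fin 6) := if h : n < 6 then some ⟨n, h⟩ else none

theorem cd_lt (j : Option (Fin 6)) : cd j < 7 := by
  cases j with
  | none => exact Nat.lt_succ_self 6
  | some i => exact Nat.lt_succ_of_lt i.2

theorem dc_cd (j : Option (Fin 6)) : dc (cd j) = j := by
  cases j with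
  | none => rfl
  | some i => exact dif_pos i.2

theorem cd_dc {n : ℕ} (h : n < 7) : cd (dc n) = n := by
  by_cases h6 : n < 6
  · rw [dc, dif_pos h6]
    rfl
  · have e : n = 6 := by omega
    subst e
    rfl

/-- the neighbours in the extended diagram -/
def nb7 (j : ℕ) : List ℕ := ([[2], [3, 6], [0, 3], [1, 2, 4], [3, 5], [4], [1]] : List (List ℕ)).getD j []

/-- the matching of an induced diagram -/
def mt7 (J j : ℕ) : ℕ := ((nb7 j).find? fun i => J.testBit i).getD j

/-- the coefficients of the extended simple roots -/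
def alv (j i : ℕ) : ℤ := if j = 6 then -((dat.gam 35).getD i 0) else if i = j then 1 else 0

theorem al_alv : ∀ j : Option (Fin 6), ∀ i : Fin 6, al chevE6 6 j i = alv (cd j) i := by decide +kernel

/-- the induced diagram is a matching -/
def mtB (J : ℕ) : Bool := (List.range 7).all fun j => !J.testBit j ||
  ((nb7 j).all fun i => !J.testBit i || i == mt7 J j)

/-- the positive roots of a matching -/
def chkP (J : ℕ) (P : List ℕ) : Bool := P.all fun r => (List.range 7).any fun j => J.testBit j && (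
  ((List.range 6).all fun i => (dat.gam r).getD i 0 == alv j i) ||
  ((List.range 6).all fun i => (dat.gam r).getD i 0 == -alv j i) ||
  (mt7 J j != j && (((List.range 6).all fun i => (dat.gam r).getD i 0 == alv j i + alv (mt7 J j) i) ||
    ((List.range 6).all fun i => (dat.gam r).getD i 0 == -(alv j i + alv (mt7 J j) i)))))

def chkM (e : ℕ × List ℕ × List ℕ) : Bool :=
  (e.1 == 127 || (e.2.2 != [] && con e.2.2) ||
    (decide (2 * e.2.1.length ≤ 8 + cnt e.1) && decide (cnt e.1 ≤ 4) && mtB e.1 && chkP e.1 e.2.1) ||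
    (!e.1.testBit 3 && e.2.1.length == 7 && cnt e.1 == 5 && mtB e.1 && chkP e.1 e.2.1 &&
      e.2.1.any fun r => !e.2.2.contains r && e.2.1.all fun s => s == r || e.2.2.contains s) ||
    (!e.1.testBit 3 && e.2.1.length == 9 && cnt e.1 == 6))

theorem tabM_ok : tab.all chkM = true := by decide +kernel

/-- the matching -/
theorem mt7_ok : ∀ J : Fin 128, mtB J = true → ∀ j : Fin 7, (J : ℕ).testBit j = true →
    (J : ℕ).testBit (mt7 J j) = true ∧ mt7 J (mt7 J j) = j ∧ mt7 J j < 7 ∧
      (mt7 J j ≠ j → (nb7 j).contains (mt7 J j) = true) ∧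
      ∀ i : Fin 7, (J : ℕ).testBit i = true → (nb7 j).contains i = true → (i : ℕ) = mt7 J j := by decide +kernel

theorem exists_bitsM (z : Option (Fin 6) → Prop) [DecidablePred z] :
    ∃ J : Fin 128, ∀ j, (J : ℕ).testBit (cd j) = decide (z j) := by
  obtain ⟨J, hJ⟩ := exists_bits fun i => decide (z (dc i))
  refine ⟨J, fun j => ?_⟩
  have h1 := hJ ⟨cd j, cd_lt j⟩
  simp only [dc_cd] at h1
  exact h1

/-- the roots of the matching -/
def Mch (J : ℕ) (P : List ℕ) : Prop := ∀ r ∈ P, ∃ j : Option (Fin 6), J.testBit (cd j) = true ∧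
  (g r = al chevE6 6 j ∨ g r = -al chevE6 6 j ∨ (mt7 J (cd j) ≠ cd j ∧
    (g r = al chevE6 6 j + al chevE6 6 (dc (mt7 J (cd j))) ∨
      g r = -(al chevE6 6 j + al chevE6 6 (dc (mt7 J (cd j)))))))

theorem mch_of {J : Fin 128} {P : List ℕ} (hm : mtB J = true) (h : chkP J P = true) : Mch J P := by
  intro r hr
  unfold chkP at h
  simp only [List.all_eq_true, List.any_eq_true, List.mem_range, Bool.and_eq_true, Bool.or_eq_true, beq_iff_eq,
    bne_iff_ne] at h
  obtain ⟨j, hj, h1, h2⟩ := h r hr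
  have hcd : cd (dc j) = j := cd_dc hj
  have hlt : mt7 J j < 7 := (mt7_ok J hm ⟨j, hj⟩ h1).2.2.1
  refine ⟨dc j, by rw [hcd]; exact h1, ?_⟩
  rw [hcd]
  have e1 : ∀ i : Fin 6, al chevE6 6 (dc j) i = alv j i := fun i => by rw [al_alv, hcd]
  have e2 : ∀ i : Fin 6, al chevE6 6 (dc (mt7 J j)) i = alv (mt7 J j) i := fun i => by rw [al_alv, cd_dc hlt]
  rcases h2 with (h2 | h2) | ⟨h3, h2 | h2⟩
  · left
    funext i
    rw [e1]
    exact h2 i i.2
  · right; left
    funext i
    rw [Pi.neg_apply, e1]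
    exact h2 i i.2
  · right; right
    refine ⟨h3, Or.inl ?_⟩
    funext i
    rw [Pi.add_apply, e1, e2]
    exact h2 i i.2
  · right; right
    refine ⟨h3, Or.inr ?_⟩
    funext i
    rw [Pi.neg_apply, Pi.add_apply, e1, e2]
    exact h2 i i.2

/-- **The table.** -/
theorem exists_tabM (c : Fin 6 → ℕ) (c0 : ℕ) (hne : ¬ (c0 = 0 ∧ ∀ i, c i = 0)) : ∃ (J : Fin 128) (P Q : List ℕ),
    (∀ j, (J : ℕ).testBit (cd j) = decide (ct c c0 j = 0)) ∧ P.Nodup ∧
    (∀ r, r ∈ P ↔ r < 36 ∧ ((∀ i, g r i ≠ 0 → c i = 0) ∨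
      (c0 = 0 ∧ ∀ i, g r i ≠ Cfsg.Agent.H931.KC.hr chevE6 6 i → c i = 0))) ∧
    (∀ r, r ∈ Q ↔ r ∈ P ∧ ∃ s ∈ P, adj r s = true) ∧
    ((Q ≠ [] ∧ ∀ r ∈ Q, ∀ s ∈ Q, r = s ∨ adj r s = true ∨ ∃ u ∈ Q, adj r u = true ∧ adj u s = true) ∨
      (2 * P.length ≤ 8 + rk c c0 ∧ rk c c0 ≤ 4 ∧ mtB J = true ∧ Mch J P) ∨
      (c 3 ≠ 0 ∧ P.length = 7 ∧ rk c c0 = 5 ∧ mtB J = true ∧ Mch J P ∧ ∃ r ∈ P, r ∉ Q ∧ ∀ s ∈ P, s = r ∨ s ∈ Q) ∨
      (c 3 ≠ 0 ∧ P.length = 9 ∧ rk c c0 = 6)) := by
  obtain ⟨J, hJ⟩ := exists_bitsM fun j => ct c c0 j = 0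
  have hb : ∀ i : Fin 6, (J : ℕ).testBit i = decide (c i = 0) := fun i => hJ (some i)
  have h6 : (J : ℕ).testBit 6 = decide (c0 = 0) := hJ none
  have hrk : cnt J = rk c c0 := by
    rw [cnt_ok, rk, h6]
    congr 1
    · congr 1
      refine Finset.filter_congr fun i _ => ?_
      rw [hb, decide_eq_true_iff]
    · simp only [decide_eq_true_eq]
  have h127 : (J : ℕ) ≠ 127 := by
    intro h
    have h1 := bits_127 J h
    apply hne
    constructor
    · have h2 := h1 6
      change (J : ℕ).testBit 6 = true at h2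
      rw [h6, decide_eq_true_iff] at h2
      exact h2
    · intro i
      have h2 := h1 ⟨i, by omega⟩
      change (J : ℕ).testBit i = true at h2
      rw [hb, decide_eq_true_iff] at h2
      exact h2
  have hlt : (J : ℕ) < tab.length := by
    have : tab.length = 128 := by decide +kernel
    rw [this]
    exact J.2
  have he : (tab[(J : ℕ)]).1 = (J : ℕ) := by
    have h1 := tab_idx
    have h2 : (tab.map fun e => e.1)[(J : ℕ)]'(by rw [List.length_map]; exact hlt) = (J : ℕ) := by
      simp only [h1, List.getElem_range]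
    rwa [List.getElem_map] at h2
  have hc := tab_ok
  rw [List.all_eq_true] at hc
  have h1 := hc _ (List.getElem_mem hlt)
  have hcM := tabM_ok
  rw [List.all_eq_true] at hcM
  have h1M := hcM _ (List.getElem_mem hlt)
  unfold chk at h1
  unfold chkM at h1M
  rw [he] at h1 h1M
  set P := (tab[(J : ℕ)]).2.1 with hP
  set Q := (tab[(J : ℕ)]).2.2 with hQ
  simp only [Bool.and_eq_true, beq_iff_eq] at h1
  obtain ⟨⟨h2, h3⟩, -⟩ := h1
  simp only [Bool.and_eq_true, Bool.or_eq_true, beq_iff_eq, decide_eq_true_eq, bne_iff_ne, Bool.not_eq_true'] at h1M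
  have hmem : ∀ r, r ∈ P ↔ r < 36 ∧ ((∀ i, g r i ≠ 0 → c i = 0) ∨
      (c0 = 0 ∧ ∀ i, g r i ≠ Cfsg.Agent.H931.KC.hr chevE6 6 i → c i = 0)) := by
    intro r
    rw [h2, List.mem_filter, List.mem_range]
    refine and_congr_right fun hr => ?_
    unfold inP
    simp only [Bool.or_eq_true, Bool.and_eq_true, List.all_eq_true, List.mem_range, beq_iff_eq]
    refine or_congr ?_ (and_congr ?_ ?_)
    · constructor
      · intro h i hi
        rcases h i i.2 with h | h
        · exact absurd h hi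
        · rw [hb, decide_eq_true_iff] at h
          exact h
      · intro h i hi
        by_cases h0 : (dat.gam r).getD i 0 = 0
        · exact Or.inl h0
        · right
          have h5 := h ⟨i, hi⟩ h0
          rw [show (J : ℕ).testBit i = (J : ℕ).testBit ((⟨i, hi⟩ : Fin 6) : ℕ) from rfl, hb, decide_eq_true_iff]
          exact h5
    · rw [h6, decide_eq_true_iff]
    · constructor
      · intro h i hi
        rcases h i i.2 with h | h
        · rw [gam35] at h
          exact absurd h hi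
        · rw [hb, decide_eq_true_iff] at h
          exact h
      · intro h i hi
        by_cases h0 : (dat.gam r).getD i 0 = (dat.gam 35).getD i 0
        · exact Or.inl h0
        · right
          have h5 := h ⟨i, hi⟩ (by rw [← gam35]; exact h0)
          rw [show (J : ℕ).testBit i = (J : ℕ).testBit ((⟨i, hi⟩ : Fin 6) : ℕ) from rfl, hb, decide_eq_true_iff]
          exact h5
  have hbit3 : (J : ℕ).testBit 3 = false → c 3 ≠ 0 := by
    intro h
    have h5 := hb 3
    change (J : ℕ).testBit 3 = _ at h5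
    rw [h] at h5
    exact of_decide_eq_false h5.symm
  refine ⟨J, P, Q, hJ, ?_, hmem, ?_, ?_⟩
  · rw [h2]
    exact (List.nodup_range (n := 36)).filter _
  · intro r
    rw [h3, List.mem_filter, List.any_eq_true]
  · rw [hrk] at h1M
    rcases h1M with (((h4 | h4) | h4) | h4) | h4
    · exact absurd h4 h127
    · left
      refine ⟨h4.1, ?_⟩
      have h5 := h4.2
      unfold con at h5
      simp only [List.all_eq_true, Bool.or_eq_true, beq_iff_eq, List.any_eq_true, Bool.and_eq_true] at h5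
      intro r hr s hs
      rcases h5 r hr s hs with (h6 | h6) | h6
      · exact Or.inl h6
      · exact Or.inr (Or.inl h6)
      · exact Or.inr (Or.inr h6)
    · right; left
      obtain ⟨⟨⟨h5, h6⟩, h7⟩, h8⟩ := h4
      exact ⟨h5, h6, h7, mch_of h7 h8⟩
    · right; right; left
      obtain ⟨⟨⟨⟨⟨h5, h6⟩, h7⟩, hmt⟩, hcp⟩, h8⟩ := h4
      rw [List.any_eq_true] at h8
      obtain ⟨r, hr, h9⟩ := h8
      simp only [Bool.and_eq_true, Bool.not_eq_true', List.all_eq_true, Bool.or_eq_true, beq_iff_eq,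
        List.contains_iff_mem] at h9
      refine ⟨hbit3 h5, h6, h7, hmt, mch_of hmt hcp, r, hr, ?_, h9.2⟩
      intro h10
      have h11 : List.contains Q r = true := List.contains_iff_mem.2 h10
      rw [h9.1] at h11
      exact Bool.false_ne_true h11
    · right; right; right
      exact ⟨hbit3 h4.1.1, h4.1.2, h4.2⟩

end Cfsg.Agent.H56.RG.E6
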