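import Cfsg.Agent.H56.RG.Dich
import Cfsg.Agent.H56.RG.TabM
import Cfsg.Agent.H255.RG.Fin

/-!
# S3509: the elements of prime order of `E₆(q)`, `²E₆(q)` (helper56)

`dich` : `f : TorForm m s`, `s` of prime order `ℓ ≠ r`. There is a highest root `β` of `Sx f.t`, fixed by `f.θ` and by `PP`, in a
component of rank `≥ 2`; or `5 ≤ ℓ` and `|C(s)| ≤ q ^ 16 * (q + 1) ^ 2`; or the type is `A₁ + 2 A₂`, `5 ≤ ℓ`,
`|C(s)| ≤ q ^ 19 * (q + 1)` and the component `A₁` has such a `β`; or `ℓ = 3` and `Sx f.t` has `18` elements.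
-/

set_option autoImplicit false
set_option linter.unusedSectionVars false

namespace Cfsg.Agent.H56.RG.E6

open CoxeterSystem Cfsg Cfsg.Lie Cfsg.Lie.ChevalleyDatum
open Cfsg.Agent.ChevalleyStructure Cfsg.Agent.ChevalleyStructure.Elts Cfsg.Agent.ChevalleyStructure.CoxeterGeom
  Cfsg.Agent.ChevalleyStructure.CoxeterGeomTypes Cfsg.Agent.ChevalleyStructure.NPerm
open Cfsg.Agent.Tits.Roots Cfsg.Agent.Tits.Core Cfsg.Agent.Nodes Cfsg.Agent.Nodes.Reps Cfsg.Agent.Nodes.BNOf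
  Cfsg.Agent.Nodes.RGDChev Cfsg.Agent.Nodes.Bruhat
open Cfsg.Agent.KFacts.RgdField Cfsg.Agent.KFacts.RgdChevCoord
open Cfsg.Agent.BpExc Cfsg.Agent.BpExc.TorCent Cfsg.Agent.BpExc.TorChev Cfsg.Agent.BpExc.Tow
  Cfsg.Agent.BpExc.TowChev Cfsg.Agent.BpExc.Fr Cfsg.Agent.BpExc.Pair Cfsg.Agent.BpExc.LangFr Cfsg.Agent.GpExc.Field
open Cfsg.Agent.H469.Exc Cfsg.Agent.H316.U6 Cfsg.Agent.H169.RG
open Cfsg.Agent.H378.Eng Cfsg.Agent.H56.RG
open Cfsg.Agent.H129.TorusChar Cfsg.Agent.H129.WData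
open Cfsg.Agent.H378.E6Dat (dat)
open Cfsg.Agent.H931.KC (al ct Kac SJ bb hr mk)
open Cfsg.Agent.H92.NE (bl)

universe u v

/-! ### coordinates -/

theorem rk_eq (c : Fin 6 → ℕ) (c0 : ℕ) : rk c c0 = Fintype.card {j : Option (Fin 6) // ct c c0 j = 0} := by
  rw [Fintype.card_subtype, Finset.card_filter, Fintype.sum_option, rk, Finset.card_filter, add_comm]
  rfl

theorem hr_val : hr chevE6 6 = ![1, 2, 2, 3, 2, 1] := by decide +kernel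

theorem kac_sum {n : ℕ} {c : Fin 6 → ℕ} {c0 : ℕ} (K : Kac chevE6 6 n c c0) :
    c0 + c 0 + 2 * c 1 + 2 * c 2 + 3 * c 3 + 2 * c 4 + c 5 = n := by
  have h := K.sum
  rw [hr_val, Fin.sum_univ_six] at h
  have e : ((![1, 2, 2, 3, 2, 1] : Fin 6 → ℤ) 0 = 1) ∧ ((![1, 2, 2, 3, 2, 1] : Fin 6 → ℤ) 1 = 2) ∧
    ((![1, 2, 2, 3, 2, 1] : Fin 6 → ℤ) 2 = 2) ∧ ((![1, 2, 2, 3, 2, 1] : Fin 6 → ℤ) 3 = 3) ∧
    ((![1, 2, 2, 3, 2, 1] : Fin 6 → ℤ) 4 = 2) ∧ ((![1, 2, 2, 3, 2, 1] : Fin 6 → ℤ) 5 = 1) := ⟨rfl, rfl, rfl, rfl, rfl, rfl⟩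
  rw [e.1, e.2.1, e.2.2.1, e.2.2.2.1, e.2.2.2.2.1, e.2.2.2.2.2] at h
  have : ((c0 + c 0 + 2 * c 1 + 2 * c 2 + 3 * c 3 + 2 * c 4 + c 5 : ℕ) : ℤ) = (n : ℤ) := by
    push_cast
    linarith
  exact_mod_cast this

/-- the number of zeros -/
theorem rk_sum (c : Fin 6 → ℕ) (c0 : ℕ) : rk c c0 = (if c0 = 0 then 1 else 0) + ((if c 0 = 0 then 1 else 0) +
    (if c 1 = 0 then 1 else 0) + (if c 2 = 0 then 1 else 0) + (if c 3 = 0 then 1 else 0) + (if c 4 = 0 then 1 else 0) +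
    (if c 5 = 0 then 1 else 0)) := by
  rw [rk, Finset.card_filter, Fin.sum_univ_six, add_comm]

/-- the roots of the component `D₄` -/
theorem D4_list : ∀ r ∈ ([1, 2, 3, 4, 7, 8, 9, 12, 13, 14, 18, 23] : List ℕ), r < 36 ∧ g r 0 = 0 ∧ g r 5 = 0 := by
  decide +kernel

/-- the small types do not occur for `ℓ = 2, 3` -/
theorem five_le_small {n : ℕ} (hn : n.Prime) {c : Fin 6 → ℕ} {c0 : ℕ} (K : Kac chevE6 6 n c c0) {P : List ℕ}
    (hPm : ∀ r, r ∈ P ↔ r < 36 ∧ ((∀ i, g r i ≠ 0 → c i = 0) ∨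
      (c0 = 0 ∧ ∀ i, g r i ≠ Cfsg.Agent.H931.KC.hr chevE6 6 i → c i = 0)))
    (h1 : 2 * P.length ≤ 8 + rk c c0) (h2 : rk c c0 ≤ 4) : 5 ≤ n := by
  by_contra hcon
  push Not at hcon
  have hn4 : n ≠ 4 := fun h => by rw [h] at hn; exact absurd hn (by norm_num)
  have hsum := kac_sum K
  have hrk := rk_sum c c0
  have h3 : c 1 = 0 ∧ c 2 = 0 ∧ c 3 = 0 ∧ c 4 = 0 := by
    split_ifs at hrk <;> omega
  have hsub : ∀ r ∈ ([1, 2, 3, 4, 7, 8, 9, 12, 13, 14, 18, 23] : List ℕ), r ∈ P := by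
    intro r hr
    obtain ⟨h4, h5, h6⟩ := D4_list r hr
    refine (hPm r).2 ⟨h4, Or.inl fun i hi => ?_⟩
    fin_cases i
    · exact absurd h5 hi
    · exact h3.1
    · exact h3.2.1
    · exact h3.2.2.1
    · exact h3.2.2.2
    · exact absurd h6 hi
  have h7 : (12 : ℕ) ≤ P.length := (List.subperm_of_subset (by decide) hsub).length_le
  omega

theorem five_le_mid {n : ℕ} (hn : n.Prime) {c : Fin 6 → ℕ} {c0 : ℕ} (K : Kac chevE6 6 n c c0)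
    (h1 : c 3 ≠ 0) (h2 : rk c c0 = 5) : 5 ≤ n ∧ ∃ j : Option (Fin 6), j ≠ some 3 ∧ ct c c0 j ≠ 0 ∧
      ∀ i, i ≠ j → i ≠ some 3 → ct c c0 i = 0 := by
  have hn4 : n ≠ 4 := fun h => by rw [h] at hn; exact absurd hn (by norm_num)
  have hsum := kac_sum K
  have hrk := rk_sum c c0
  rw [h2, if_neg h1] at hrk
  refine ⟨by split_ifs at hrk <;> omega, ?_⟩
  set N : Finset (Option (Fin 6)) := (Finset.univ.filter fun j => ct c c0 j ≠ 0).erase (some 3) with hN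
  have hmem : ∀ j, j ∈ N ↔ j ≠ some 3 ∧ ct c c0 j ≠ 0 := fun j => by
    rw [hN, Finset.mem_erase, Finset.mem_filter]
    exact ⟨fun h => ⟨h.1, h.2.2⟩, fun h => ⟨h.1, Finset.mem_univ _, h.2⟩⟩
  have hcard : N.card = 1 := by
    have h13 : (some 3 : Option (Fin 6)) ∈ Finset.univ.filter fun j => ct c c0 j ≠ 0 :=
      Finset.mem_filter.2 ⟨Finset.mem_univ _, h1⟩
    rw [hN, Finset.card_erase_of_mem h13]
    have h3 : (Finset.univ.filter fun j : Option (Fin 6) => ct c c0 j = 0).card +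
        (Finset.univ.filter fun j : Option (Fin 6) => ct c c0 j ≠ 0).card = (Finset.univ : Finset (Option (Fin 6))).card :=
      Finset.card_filter_add_card_filter_not (s := (Finset.univ : Finset (Option (Fin 6)))) (fun j => ct c c0 j = 0)
    have h4 := rk_eq c c0
    rw [Fintype.card_subtype, h2] at h4
    rw [← h4, Finset.card_univ] at h3
    have h5 : Fintype.card (Option (Fin 6)) = 7 := rfl
    rw [h5] at h3
    omega
  obtain ⟨j, hj⟩ := Finset.card_eq_one.1 hcard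
  have hjN : j ∈ N := by rw [hj]; exact Finset.mem_singleton_self j
  refine ⟨j, ((hmem j).1 hjN).1, ((hmem j).1 hjN).2, fun i hij hi3 => ?_⟩
  by_contra h3
  have h4 : i ∈ N := (hmem i).2 ⟨hi3, h3⟩
  rw [hj, Finset.mem_singleton] at h4
  exact hij h4

theorem eq_three {n : ℕ} (hn : n.Prime) {c : Fin 6 → ℕ} {c0 : ℕ} (K : Kac chevE6 6 n c c0)
    (h1 : c 3 ≠ 0) (h2 : rk c c0 = 6) : n = 3 := by
  have hsum := kac_sum K
  have hrk := rk_sum c c0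
  rw [h2, if_neg h1] at hrk
  have h3 : n = 3 * c 3 := by split_ifs at hrk <;> omega
  have h4 : 3 ∣ n := ⟨_, h3⟩
  exact ((Nat.prime_dvd_prime_iff_eq Nat.prime_three hn).1 h4).symm

/-! ### the matching -/

theorem nb_bl : ∀ i j : Option (Fin 6), bl Bm6 (al chevE6 6 i) (al chevE6 6 j) = -1 →
    (nb7 (cd i)).contains (cd j) = true := by decide +kernel

theorem deg_mt {M : CoxeterMatrix (Fin 6)} (hp : IsType chevE6 6 M) {J : Fin 128} {c : Fin 6 → ℕ} {c0 : ℕ}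
    (hJ : ∀ j, (J : ℕ).testBit (cd j) = decide (ct c c0 j = 0)) (hm : mtB J = true) :
    Cfsg.Agent.H255.RG.Deg hp fun j => ct c c0 j = 0 := by
  refine Cfsg.Agent.H255.RG.deg_of Cfsg.Agent.H255.RG.ef_E6 fun i j j' hi hj hj' h1 h2 => ?_
  have hb : ∀ j, ct c c0 j = 0 → (J : ℕ).testBit (cd j) = true := fun j hj => by
    rw [hJ, decide_eq_true_iff]; exact hj
  have h3 := (mt7_ok J hm ⟨cd i, cd_lt i⟩ (hb i hi)).2.2.2.2
  have h4 : cd j = mt7 J (cd i) := h3 ⟨cd j, cd_lt j⟩ (hb j hj) (nb_bl i j h1)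
  have h5 : cd j' = mt7 J (cd i) := h3 ⟨cd j', cd_lt j'⟩ (hb j' hj') (nb_bl i j' h2)
  rw [← dc_cd j, ← dc_cd j', h4, h5]

/-! ### elements of prime order -/

section

variable {M : CoxeterMatrix (Fin 6)} {hp : IsType chevE6 6 M}

section chars

variable {k : Type u} [Field k] {t : ↥(chevE6.group k)} (ht : t ∈ TT chevE6 k)

include ht in
theorem mem_Sx_iff {a : Fin 6 → ℤ} : a ∈ Sx M.toCoxeterSystem hp.isCartan (ch hp) t ↔
    IsRoot M.toCoxeterSystem hp.isCartan a ∧ cX hp t a = 1 := by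
  constructor
  · rintro ⟨h1, h2⟩
    exact ⟨h1, by rw [cX_root hp M.toCoxeterSystem ht h1]; exact h2⟩
  · rintro ⟨h1, h2⟩
    exact ⟨h1, by rw [cX_root hp M.toCoxeterSystem ht h1] at h2; exact h2⟩

include ht in
theorem Sx_neg {a : Fin 6 → ℤ} (ha : a ∈ Sx M.toCoxeterSystem hp.isCartan (ch hp) t) :
    -a ∈ Sx M.toCoxeterSystem hp.isCartan (ch hp) t := by
  rw [mem_Sx_iff ht] at ha ⊢
  refine ⟨ha.1.neg, ?_⟩
  have h1 := (isMC_cX hp ht).add (-a) a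
  rw [neg_add_cancel, (isMC_cX hp ht).zero, ha.2, mul_one] at h1
  exact h1.symm

include ht in
theorem Sx_add {a b : Fin 6 → ℤ} (ha : a ∈ Sx M.toCoxeterSystem hp.isCartan (ch hp) t)
    (hb : b ∈ Sx M.toCoxeterSystem hp.isCartan (ch hp) t) (hab : IsRoot M.toCoxeterSystem hp.isCartan (a + b)) :
    a + b ∈ Sx M.toCoxeterSystem hp.isCartan (ch hp) t := by
  rw [mem_Sx_iff ht] at ha hb ⊢
  refine ⟨hab, ?_⟩
  rw [(isMC_cX hp ht).add, ha.2, hb.2, mul_one]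

end chars

variable {r q : ℕ} [hrp : Fact r.Prime] {K₀ : Type v} [Group K₀] {m : MData hp r q K₀} {s : ↥(chevE6.group (KK r))}

/-- `β` is a highest root of `Sx f.t` fixed by `f.θ` and `PP` -/
structure Top [Finite M.Group] (f : TorForm m s) (β : Fin 6 → ℤ) : Prop where
  mem : β ∈ Sx M.toCoxeterSystem hp.isCartan (ch hp) f.t
  nonneg : 0 ≤ β
  max : ∀ a ∈ Sx M.toCoxeterSystem hp.isCartan (ch hp) f.t, 0 ≤ a → ¬ IsRoot M.toCoxeterSystem hp.isCartan (β + a)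
  fix : f.θ β = β
  pp : ∀ v ∈ PP M.toCoxeterSystem hp.isCartan (ch hp) f.t, rep M.toCoxeterSystem hp.isCartan v β = β

theorem Top.of_tp [Finite M.Group] (f : TorForm m s) {β : Fin 6 → ℤ}
    (h : Tp hp (Sx M.toCoxeterSystem hp.isCartan (ch hp) f.t) β) : Top f β := by
  refine ⟨h.mem, h.nonneg, h.max, h.fix f.θ ⟨f.fr.root, f.stab, f.pos⟩, fun v hv => ?_⟩
  obtain ⟨h1, h2⟩ := mem_PP.1 hv
  have hr : ∀ a, IsRoot M.toCoxeterSystem hp.isCartan (rep M.toCoxeterSystem hp.isCartan v a) ↔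
      IsRoot M.toCoxeterSystem hp.isCartan a := fun a => ⟨fun h' => by
        have := h'.act v⁻¹
        rwa [rep_inv_apply] at this, fun h' => h'.act v⟩
  exact h.fix (repAut M.toCoxeterSystem hp.isCartan v) ⟨hr, fun a => ⟨fun h' => ⟨(hr a).1 h'.1, by
    rw [← h1 a ((hr a).1 h'.1)]; exact h'.2⟩, fun h' => ⟨(hr a).2 h'.1, by
      show ch hp (rep M.toCoxeterSystem hp.isCartan v a) f.t = 1
      rw [h1 a h'.1]; exact h'.2⟩⟩, fun a ha h0 => h2 a ha h0⟩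

/-- `PP` is trivial for `5 ≤ ℓ` -/
theorem card_PP_one [Finite M.Group] (f : TorForm m s) {ℓ : ℕ} (hℓ : ℓ.Prime) (hℓr : ℓ ≠ r) (hs : s ^ ℓ = 1) (h5 : 5 ≤ ℓ) :
    Nat.card ↥(PP M.toCoxeterSystem hp.isCartan (ch hp) f.t) = 1 := by
  have ht := f.pow_eq_one hs
  have hnk : (ℓ : KK r) ≠ 0 := by
    intro h
    rw [CharP.cast_eq_zero_iff (KK r) r ℓ] at h
    exact hℓr ((Nat.prime_dvd_prime_iff_eq hrp.out hℓ).1 h).symm
  have h1 := Cfsg.Agent.H931.KC.card_PP_le hp (k := KK r) hnk f.mem ht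
  rw [Cfsg.Agent.H931.KC.card_mk, Cfsg.Agent.H931.KC.nmk_E6] at h1
  have hA := chAddL (k := KK r) hp M.toCoxeterSystem (locFin r) r
  have h2 := isPGroup_PP hA f.mem hℓ (fun a ha => by
    rw [← cX_root hp M.toCoxeterSystem f.mem ha, ← cX_pow hp f.mem, ht, cX_one])
  have : Fact ℓ.Prime := ⟨hℓ⟩
  obtain ⟨n, hn⟩ := IsPGroup.iff_card.1 h2
  rcases Nat.eq_zero_or_pos n with h0 | h0
  · rw [hn, h0, pow_zero]
  · exfalso
    have h3 : ℓ ≤ ℓ ^ n := Nat.le_self_pow h0.ne' ℓ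
    rw [← hn] at h3
    omega

theorem num_small {q S k : ℕ} (hq : 2 ≤ q) (h1 : S ≤ 8 + k) (h2 : k ≤ 4) :
    q ^ (S + k) * (q + 1) ^ (6 - k) ≤ q ^ 16 * (q + 1) ^ 2 := by
  have h3 : q + 1 ≤ q ^ 2 := by nlinarith
  have e1 : 6 - k = (4 - k) + 2 := by omega
  rw [e1, pow_add (q + 1), ← mul_assoc]
  refine Nat.mul_le_mul_right _ ?_
  calc q ^ (S + k) * (q + 1) ^ (4 - k) ≤ q ^ (S + k) * (q ^ 2) ^ (4 - k) :=
        Nat.mul_le_mul_left _ (Nat.pow_le_pow_left h3 _)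
    _ = q ^ (S + k + 2 * (4 - k)) := by rw [← pow_mul, ← pow_add]
    _ ≤ q ^ 16 := Nat.pow_le_pow_right (by omega) (by omega)

/-- **The dichotomy.** -/
theorem dich [Finite M.Group] (f : TorForm m s) {ℓ : ℕ} (hℓ : ℓ.Prime) (hℓr : ℓ ≠ r) (hs : s ^ ℓ = 1) :
    (∃ β, Top f β ∧ ∃ b ∈ Sx M.toCoxeterSystem hp.isCartan (ch hp) f.t, IsRoot M.toCoxeterSystem hp.isCartan (β - b)) ∨
    (5 ≤ ℓ ∧ Nat.card ↥(fixC m.σ s) ≤ q ^ 16 * (q + 1) ^ 2) ∨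
    (5 ≤ ℓ ∧ (∃ β, Top f β) ∧ Nat.card ↥(fixC m.σ s) ≤ q ^ 19 * (q + 1) ∧
      ∃ (ζ : KK r) (w : M.Group) (c : Fin 6 → ℕ) (c0 : ℕ), IsPrimitiveRoot ζ ℓ ∧ Kac chevE6 6 ℓ c c0 ∧
        (∀ x, cX hp f.t (rep M.toCoxeterSystem hp.isCartan w x) = ζ ^ (∑ i, x i * (c i : ℤ))) ∧ c 3 ≠ 0 ∧
        ∃ j : Option (Fin 6), j ≠ some 3 ∧ ct c c0 j ≠ 0 ∧ ∀ i, i ≠ j → i ≠ some 3 → ct c c0 i = 0) ∨
    (ℓ = 3 ∧ (Sx M.toCoxeterSystem hp.isCartan (ch hp) f.t).ncard = 18) := by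
  have ht := f.pow_eq_one hs
  have hnk : (ℓ : KK r) ≠ 0 := by
    intro h
    rw [CharP.cast_eq_zero_iff (KK r) r ℓ] at h
    exact hℓr ((Nat.prime_dvd_prime_iff_eq hrp.out hℓ).1 h).symm
  have : NeZero (ℓ : KK r) := ⟨hnk⟩
  obtain ⟨ζ, hζ⟩ := HasEnoughRootsOfUnity.exists_primitiveRoot (KK r) ℓ
  obtain ⟨w, c, c0, K, hch, hSJ, π, hπ⟩ := Cfsg.Agent.H931.KC.exists_kac_theta hp hℓ.pos hζ f.mem ht f.stab f.pos
  set S := Sx M.toCoxeterSystem hp.isCartan (ch hp) f.t with hSdef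
  -- the coordinates are not all zero
  have hne : ¬ (c0 = 0 ∧ ∀ i, c i = 0) := by
    rintro ⟨h0, h1⟩
    obtain ⟨i, hi⟩ := K.ne h0
    exact hi (h1 i)
  have hSr : ∀ a ∈ S, IsRoot M.toCoxeterSystem hp.isCartan a := fun a ha => ha.1
  have hneg : ∀ a ∈ S, -a ∈ S := fun a ha => Sx_neg f.mem ha
  have hadd : ∀ a ∈ S, ∀ b ∈ S, IsRoot M.toCoxeterSystem hp.isCartan (a + b) → a + b ∈ S :=
    fun a ha b hb hab => Sx_add f.mem ha hb hab
  have hc : ∀ a, IsRoot M.toCoxeterSystem hp.isCartan a → 0 ≤ a → (rep M.toCoxeterSystem hp.isCartan w a ∈ S ↔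
      (∀ i, a i ≠ 0 → c i = 0) ∨ (c0 = 0 ∧ ∀ i, a i ≠ Cfsg.Agent.H931.KC.hr chevE6 6 i → c i = 0)) := by
    intro a ha h0
    rw [← Cfsg.Agent.H931.KC.dvd_iff hp K ha h0, ← hζ.zpow_eq_one_iff_dvd]
    have h1 : cX hp f.t (rep M.toCoxeterSystem hp.isCartan w a) = ζ ^ (∑ i, a i * (c i : ℤ)) := hch a
    rw [← h1, hSdef, mem_Sx_iff f.mem]
    exact ⟨fun h => h.2, fun h => ⟨ha.act w, h⟩⟩
  obtain ⟨J, P, Q, hJ, hnd, hPm, hQ, hcase⟩ := exists_tabM c c0 hne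
  have hP : ∀ r ∈ P, r < 36 := fun r hr => ((hPm r).1 hr).1
  have hS : ∀ a, a ∈ S ↔ ME hp w P a := by
    intro a
    constructor
    · intro ha
      have h1 : IsRoot M.toCoxeterSystem hp.isCartan (rep M.toCoxeterSystem hp.isCartan w⁻¹ a) := (hSr a ha).act w⁻¹
      obtain ⟨r, hr, h2⟩ := root_iff_g hp h1
      have h3 : a = rep M.toCoxeterSystem hp.isCartan w (g r) ∨ a = -rep M.toCoxeterSystem hp.isCartan w (g r) := by
        rcases h2 with h2 | h2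
        · left; rw [← h2, rep_apply_inv]
        · right; rw [← map_neg, ← h2, rep_apply_inv]
      refine ⟨r, (hPm r).2 ⟨hr, (hc _ (root_g hp hr) (g_nonneg hr)).1 ?_⟩, h3⟩
      rcases h3 with h3 | h3
      · rw [← h3]; exact ha
      · have := hneg a ha
        rwa [h3, neg_neg] at this
    · rintro ⟨r, hr, h⟩
      have h1 := (hPm r).1 hr
      have h2 := (hc _ (root_g hp h1.1) (g_nonneg h1.1)).2 h1.2
      rcases h with h | h
      · rw [h]; exact h2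
      · rw [h]; exact hneg _ h2
  have hcard := ncard_S hp hS hP hnd
  -- the bound
  have hq2 : 2 ≤ q := by
    rw [← m.hq]
    calc 2 ≤ r := hrp.out.two_le
      _ = r ^ 1 := (pow_one r).symm
      _ ≤ r ^ m.e := Nat.pow_le_pow_right hrp.out.pos m.he
  have hbound : 5 ≤ ℓ → mtB J = true → Nat.card ↥(fixC m.σ s) ≤ q ^ (S.ncard + rk c c0) * (q + 1) ^ (6 - rk c c0) := by
    intro h5 hm
    have h1 := Cfsg.Agent.H255.RG.card_fixC_le_kac f Cfsg.Agent.H255.RG.ef_E6 K hSJ hπ (deg_mt hp hJ hm)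
    rw [card_PP_one f hℓ hℓr hs h5, one_mul, ← rk_eq] at h1
    exact h1
  rcases hcase with h | ⟨h1, h2, h3, -⟩ | ⟨h1, h2, h3, hm, -, r, hr, hrQ, h4⟩ | ⟨h1, h2, h3⟩
  · obtain ⟨β, hβ, hb⟩ := top_Q hp hS hP hQ hneg hadd h.1 h.2
    exact Or.inl ⟨β, Top.of_tp f hβ, hb⟩
  · have h5 := five_le_small hℓ K hPm h1 h2
    refine Or.inr (Or.inl ⟨h5, (hbound h5 h3).trans ?_⟩)
    exact num_small hq2 (by rw [hcard]; exact h1) h2
  · obtain ⟨h5, h6⟩ := five_le_mid hℓ K h1 h3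
    obtain ⟨β, hβ⟩ := top_one hp hS hP hQ hneg hr hrQ h4
    refine Or.inr (Or.inr (Or.inl ⟨h5, ⟨β, Top.of_tp f hβ⟩, ?_, ζ, w, c, c0, hζ, K, hch, h1, h6⟩))
    have h7 := hbound h5 hm
    rw [hcard, h2, h3] at h7
    simpa using h7
  · exact Or.inr (Or.inr (Or.inr ⟨eq_three hℓ K h1 h3, by rw [hcard, h2]⟩))

end

end Cfsg.Agent.H56.RG.E6
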