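import Cfsg.Agent.H808.R2.NineDef
import Cfsg.Agent.H106.QT.Base

/-!
# S3509, R2: lattice data of the elements of `W(E₆)` with `1 + u³ + u⁶ = 0` (helper56)

`exists_nineLat` : helper808's `NineLat` for every `u` with `Nine hp cs u`.
-/

set_option autoImplicit false
set_option linter.unusedSectionVars false
set_option maxRecDepth 100000

namespace Cfsg.Agent.H56.RG.Nine

open CoxeterSystem Cfsg Cfsg.Lie Cfsg.Lie.ChevalleyDatum
open Cfsg.Agent.ChevalleyStructure Cfsg.Agent.ChevalleyStructure.Elts Cfsg.Agent.ChevalleyStructure.CoxeterGeom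
  Cfsg.Agent.ChevalleyStructure.CoxeterGeomTypes Cfsg.Agent.ChevalleyStructure.NPerm
open Cfsg.Agent.Tits.Roots Cfsg.Agent.Tits.Core Cfsg.Agent.Nodes Cfsg.Agent.Nodes.Reps Cfsg.Agent.Nodes.RGDChev
  Cfsg.Agent.Nodes.SubComb Cfsg.Agent.Nodes.Coroot
open Cfsg.Agent.H378.Eng Cfsg.Agent.H165.WL Cfsg.Agent.H378.WL
open Cfsg.Agent.H378.E6Dat (dat)

/-! ### the table -/

/-- iterates of the matrix of the class `21` -/
def Lk (R : List Vc) : ℕ → Vc → Vc
  | 0, x => x
  | n + 1, x => lc (Lk R n x) R

/-- the roots `γ, Lγ, ..., L⁵γ` -/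
def cols (r : ℕ) : List Vc := (List.range 6).map fun k => Lk (dat.R 21) k (dat.gam r)

/-- the three systems `A₂` -/
def PL : ℕ → List ℕ
  | 0 => [11, 13, 25]
  | 1 => [12, 15, 27]
  | _ => [14, 26, 33]

/-- the positive roots of `S` -/
def SL9 : List ℕ := [11, 12, 13, 14, 15, 25, 26, 27, 33]

/-- certificates -/
def cert : List (List ℕ) := [
    [554189329, 553109007, 520633872, 587743760, 555237904, 519619056], [553173521, 554189329, 520602128, 554188303,
  587744752, 554189360], [554189360, 519619056, 554189329, 554156559, 587743760, 521715217], [555237904, 587712047,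
  554222096, 554189329, 520633872, 553141743], [587743760, 553141743, 555237904, 554189360, 554189329, 520666608],
  [520602128, 520633872, 553139728, 587744752, 555237935, 554189329], [586727953, 553141744, 521650704, 554188335,
  587744753, 520666640], [555238928, 555237936, 554222128, 553140721, 520601103, 587744784], [555237936, 553141775,
  554222097, 554156560, 554188304, 520667632], [587744753, 554157583, 521682479, 586727953, 521650704, 553173488],
  [586695152, 554189296, 555205135, 554222128, 554190353, 554188304], [522700337, 519554606, 519649841, 620217809,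
  522697262, 519652817, 554189329, 553140752, 554156559, 554188304, 554189296, 554156560, 520634896, 553140720,
  520633872], [488160847, 588824146, 585681394, 488062447, 585678319, 588728911, 520634896, 554189329, 554188304,
  553140720, 554156559, 520633872, 554189360, 554156560, 553140752], [620316113, 623363633, 522700334, 519649841,
  519554513, 620217902, 554222096, 555237936, 554189329, 520634896, 553140752, 554222097, 587744784, 554189360,
  554190352], [588824143, 585681391, 588827122, 488062543, 585678322, 488160751, 555237936, 554190352, 553140752,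
  554189329, 520633872, 554189360, 554222096, 520634896, 554222097], [588728815, 488160751, 588824143, 585681394,
  488062543, 588824050, 587744784, 554222096, 520634896, 554189360, 554189329, 554190352, 555237904, 554222097,
  555237936], [554190321, 555205168, 520633903, 586727921, 521650703, 586696208], [587777553, 554190352, 521683504,
  553139728, 554156528, 554222096], [554222096, 588792369, 554190352, 520633872, 553140720, 587712047], [587744752,
  555237904, 555237935, 553173521, 520602128, 587743760], [555237935, 554222096, 587777553, 520602128, 553139728,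
  555237904], [554222097, 587712048, 520634896, 554188304, 554189296, 553141775], [554190353, 520634896, 520633904,
  586695152, 555205135, 554222097], [521682479, 587743792, 586728945, 521650704, 553172496, 554157583], [554222128,
  554222097, 554190353, 520601103, 586695152, 555237936], [588827122, 588728911, 488160847, 585678322, 488062447,
  585681391, 554222097, 554189360, 554156560, 520633872, 553140720, 554189329, 554190352, 553140752, 520634896],
  [585681394, 488160754, 488062543, 585678319, 588728815, 588824146, 553140752, 520633872, 554189296, 554156559,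
  587743760, 553140720, 554189329, 554188304, 554156560], [522700334, 522795569, 620316209, 519554513, 519551534,
  623363633, 554190352, 554222097, 520633872, 553140752, 554156560, 520634896, 555237936, 554189329, 554189360],
  [554221104, 586696208, 554190321, 521649711, 586727921, 520634895], [554190352, 521715217, 554189360, 553140720,
  554156559, 588792369], [586727952, 554222065, 555206160, 520633903, 586696177, 555236912], [521650735, 520666640,
  586727953, 554157552, 554188335, 555237905], [587744784, 520667632, 555237936, 553140752, 554156560, 555269649],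
  [620316209, 519652817, 522700337, 519551534, 620217809, 522795569, 554189360, 520634896, 553140720, 554156560,
  554188304, 553140752, 554222097, 520633872, 554189329], [555206160, 520634895, 554221104, 586696177, 521649711,
  554222065], [586728945, 555237905, 521650735, 553172496, 554157552, 587743792]]

/-- decoding -/
def dcd (n : ℕ) : Vc := (List.range 6).map fun k => ((n / 32 ^ k % 32 : ℕ) : ℤ) - 16

def crt (r i : ℕ) : Vc := dcd ((cert.getD r []).getD i 0)

theorem chkG : ((List.range 36).all fun r => SL9.contains r || (List.range 6).all fun j =>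
    veq (lc (crt r j) (cols r)) (bv j)) = true := by decide +kernel

theorem chk3 : (SL9.all fun r => (List.range 6).all fun j => veq (lc (crt r j) (cols r)) (vsm 3 (bv j))) = true := by
  decide +kernel

theorem chkS : (SL9.all fun r => (List.range 9).all fun i =>
    veq (lc (crt r (6 + i)) (cols r)) (dat.gam (SL9.getD i 0))) = true := by decide +kernel

theorem chkAct : ((List.range 3).all fun i => (PL i).all fun r => (PL ((i + 1) % 3)).any fun s =>
    veq (lc (dat.gam r) (dat.R 21)) (dat.gam s) || veq (lc (dat.gam r) (dat.R 21)) (vsm (-1) (dat.gam s))) = true := by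
  decide +kernel

theorem chkRefl : (SL9.all fun r => (List.range 3).all fun i => (PL i).all fun t => (PL i).any fun s =>
    veq (vadd (dat.gam t) (vsm (-dot (dat.cor r) (dat.gam t)) (dat.gam r))) (dat.gam s) ||
      veq (vadd (dat.gam t) (vsm (-dot (dat.cor r) (dat.gam t)) (dat.gam r))) (vsm (-1) (dat.gam s))) = true := by
  decide +kernel

theorem chkP : (SL9.all fun r => (List.range 3).any fun i => (PL i).contains r) = true := by decide +kernel

theorem chkP' : ((List.range 3).all fun i => (PL i).all fun r => SL9.contains r &&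
    !(PL ((i + 1) % 3)).contains r) = true := by decide +kernel

theorem lenR : ((List.range 25).all fun i => decide ((dat.R i).length ≤ 6)) = true := by decide +kernel

theorem chkN : ((List.range 25).all fun i => i == 21 || (List.range 6).any fun j => (List.range 6).any fun k =>
    (vadd (bv j) (vadd (Lk (dat.R i) 3 (bv j)) (Lk (dat.R i) 6 (bv j)))).getD k 0 != 0) = true := by decide +kernel

theorem gam_inj : ((List.range 36).all fun r => (List.range 36).all fun s => r == s ||
    (!(veq (dat.gam r) (dat.gam s)) && !(veq (dat.gam r) (vsm (-1) (dat.gam s))))) = true := by decide +kernel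

theorem gam_neg : ((List.range 36).all fun r => !(veq (dat.gam r) (vsm (-1) (dat.gam r)))) = true := by decide +kernel

theorem gam_len : ((List.range 36).all fun r => decide ((dat.gam r).length ≤ 6)) = true := by decide +kernel

/-! ### the lattice -/

/-- the roots -/
def g (r : ℕ) : Fin 6 → ℤ := toF 6 (dat.gam r)

/-- `±` the roots of a list -/
def Sg (l : List ℕ) (x : Fin 6 → ℤ) : Prop := ∃ r ∈ l, x = g r ∨ x = -g r

theorem Sg.neg {l : List ℕ} {x : Fin 6 → ℤ} (h : Sg l x) : Sg l (-x) := by
  obtain ⟨r, hr, h | h⟩ := h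
  · exact ⟨r, hr, Or.inr (by rw [h])⟩
  · exact ⟨r, hr, Or.inl (by rw [h, neg_neg])⟩

theorem PL_lt {i r : ℕ} (hi : i < 3) (hr : r ∈ PL i) : r ∈ SL9 := by
  have h := chkP'
  simp only [List.all_eq_true, Bool.and_eq_true, List.contains_iff_mem] at h
  exact (h i (List.mem_range.2 hi) r hr).1

theorem SL9_lt {r : ℕ} (hr : r ∈ SL9) : r < 36 := by
  have h : (SL9.all fun r => decide (r < 36)) = true := by decide +kernel
  rw [List.all_eq_true] at h
  simpa using h r hr

theorem g_ne {r s : ℕ} (hr : r < 36) (hs : s < 36) (h : g r = g s ∨ g r = -g s) : r = s := by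
  by_contra hne
  have h1 := gam_inj
  simp only [List.all_eq_true, Bool.or_eq_true, beq_iff_eq, Bool.and_eq_true, Bool.not_eq_true'] at h1
  have hl := gam_len
  simp only [List.all_eq_true, decide_eq_true_eq] at hl
  obtain ⟨h2, h3⟩ := (h1 r (List.mem_range.2 hr) s (List.mem_range.2 hs)).resolve_left hne
  rcases h with h | h
  · have h4 := veq_of_toF (l := 6) (hl r (List.mem_range.2 hr)) (hl s (List.mem_range.2 hs)) h
    rw [h2] at h4
    exact Bool.false_ne_true h4
  · have h5 : toF 6 (dat.gam r) = toF 6 (vsm (-1) (dat.gam s)) := by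
      rw [toF_vsm, neg_one_smul]
      exact h
    have h6 : (vsm (-1) (dat.gam s)).length ≤ 6 := by
      have h7 : ((List.range 36).all fun r => decide ((vsm (-1) (dat.gam r)).length ≤ 6)) = true := by decide +kernel
      simp only [List.all_eq_true, decide_eq_true_eq] at h7
      exact h7 s (List.mem_range.2 hs)
    have h4 := veq_of_toF (l := 6) (hl r (List.mem_range.2 hr)) h6 h5
    rw [h3] at h4
    exact Bool.false_ne_true h4

theorem g_ne_neg {r : ℕ} (hr : r < 36) (h : g r = -g r) : False := by
  have hl := gam_len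
  simp only [List.all_eq_true, decide_eq_true_eq] at hl
  have h5 : toF 6 (dat.gam r) = toF 6 (vsm (-1) (dat.gam r)) := by
    rw [toF_vsm, neg_one_smul]
    exact h
  have h6 : (vsm (-1) (dat.gam r)).length ≤ 6 := by
    have h7 : ((List.range 36).all fun r => decide ((vsm (-1) (dat.gam r)).length ≤ 6)) = true := by decide +kernel
    simp only [List.all_eq_true, decide_eq_true_eq] at h7
    exact h7 r (List.mem_range.2 hr)
  have h4 := veq_of_toF (l := 6) (hl r (List.mem_range.2 hr)) h6 h5
  have h1 := gam_neg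
  simp only [List.all_eq_true, Bool.not_eq_true'] at h1
  rw [h1 r (List.mem_range.2 hr)] at h4
  exact Bool.false_ne_true h4

theorem Lk_toF {R : List Vc} (hR : R.length ≤ 6) (n : ℕ) (x : Vc) : toF 6 (Lk R n x) = (lin 6 R)^[n] (toF 6 x) := by
  induction n with
  | zero => rfl
  | succ n ih =>
    rw [Function.iterate_succ_apply', ← ih, lin_toF hR]
    rfl

theorem lcF_mem {B : AddSubgroup (Fin 6 → ℤ)} : ∀ (c : Vc) (L : List (Fin 6 → ℤ)), (∀ v ∈ L, v ∈ B) → lcF c L ∈ B
  | [], [], _ => B.zero_mem
  | [], _ :: _, _ => B.zero_mem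
  | _ :: _, [], _ => B.zero_mem
  | x :: a, v :: L, h => B.add_mem (B.zsmul_mem (h v List.mem_cons_self) x)
      (lcF_mem a L fun w hw => h w (List.mem_cons_of_mem v hw))

theorem lenR21 : (dat.R 21).length ≤ 6 := by
  have h := lenR
  simp only [List.all_eq_true, decide_eq_true_eq] at h
  exact h 21 (List.mem_range.2 (by norm_num))

/-- a stable subgroup contains the combinations of the `L^k γ` -/
theorem cert_mem {B : AddSubgroup (Fin 6 → ℤ)} (hB : ∀ x ∈ B, lin 6 (dat.R 21) x ∈ B) {r : ℕ} (hr : g r ∈ B) (c : Vc) :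
    toF 6 (lc c (cols r)) ∈ B := by
  rw [toF_lc]
  refine lcF_mem c _ fun v hv => ?_
  rw [List.mem_map] at hv
  obtain ⟨y, hy, rfl⟩ := hv
  unfold cols at hy
  rw [List.mem_map] at hy
  obtain ⟨k, -, rfl⟩ := hy
  rw [Lk_toF lenR21]
  induction k with
  | zero => exact hr
  | succ k ih =>
    rw [Function.iterate_succ_apply']
    exact hB _ ih

theorem top_of_bv {B : AddSubgroup (Fin 6 → ℤ)} (h : ∀ j : Fin 6, (Pi.single j 1 : Fin 6 → ℤ) ∈ B) : B = ⊤ := by
  rw [eq_top_iff]
  intro x _
  have e : x = ∑ i : Fin 6, x i • (Pi.single i 1 : Fin 6 → ℤ) := by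
    funext j
    simp [Finset.sum_apply, Pi.single_apply]
  rw [e]
  exact B.sum_mem fun i _ => B.zsmul_mem (h i) _

theorem gen_out {B : AddSubgroup (Fin 6 → ℤ)} (hB : ∀ x ∈ B, lin 6 (dat.R 21) x ∈ B) {r : ℕ} (hr : r < 36)
    (hr9 : r ∉ SL9) (h : g r ∈ B) : B = ⊤ := by
  refine top_of_bv fun j => ?_
  have h1 := chkG
  simp only [List.all_eq_true, Bool.or_eq_true, List.contains_iff_mem] at h1
  have h2 := (h1 r (List.mem_range.2 hr)).resolve_left hr9 j (List.mem_range.2 j.2)
  rw [← toF_bv, ← toF_veq h2]
  exact cert_mem hB h _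

theorem gen_in {B : AddSubgroup (Fin 6 → ℤ)} (hB : ∀ x ∈ B, lin 6 (dat.R 21) x ∈ B) {r : ℕ}
    (hr9 : r ∈ SL9) (h : g r ∈ B) : (∀ s ∈ SL9, g s ∈ B) ∧ ∀ y : Fin 6 → ℤ, (3 : ℤ) • y ∈ B := by
  constructor
  · intro s hs
    have h1 := chkS
    simp only [List.all_eq_true] at h1
    obtain ⟨i, hi, e⟩ := List.mem_iff_getElem.1 hs
    have hi9 : i < 9 := hi
    have h2 := h1 r hr9 i (List.mem_range.2 hi9)
    have e2 : SL9.getD i 0 = s := by
      rw [← e, List.getD_eq_getElem?_getD, List.getElem?_eq_getElem hi]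
      rfl
    rw [e2] at h2
    unfold g
    rw [← toF_veq h2]
    exact cert_mem hB h _
  · intro y
    have e : (3 : ℤ) • y = ∑ i : Fin 6, y i • ((3 : ℤ) • (Pi.single i 1 : Fin 6 → ℤ)) := by
      funext j
      simp [Finset.sum_apply, Pi.single_apply, mul_comm]
    rw [e]
    refine B.sum_mem fun i _ => B.zsmul_mem ?_ _
    have h1 := chk3
    simp only [List.all_eq_true] at h1
    have h2 := h1 r hr9 i (List.mem_range.2 i.2)
    rw [← toF_bv, ← toF_vsm, ← toF_veq h2]
    exact cert_mem hB h _

/-! ### the theorem -/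

variable {M : CoxeterMatrix (Fin 6)} (hp : IsType chevE6 6 M) {W : Type*} [Group W] (cs : CoxeterSystem M W)

theorem root_ex {a : Fin 6 → ℤ} (ha : IsRoot cs hp.isCartan a) : ∃ r < 36, a = g r ∨ a = -g r := by
  obtain ⟨b, hb, h6⟩ := exists_gam' cs hp.isCartan (T := dat) rfl Cfsg.Agent.H378.WL.E6.row Cfsg.Agent.H378.E6Dat.chkR ha
  obtain ⟨r, hr, e1, -⟩ := exists_lt_of_mem hb
  rw [← e1] at h6
  exact ⟨r, hr, h6⟩

theorem root_g {r : ℕ} (hr : r < 36) : IsRoot cs hp.isCartan (g r) :=
  root_gam cs hp.isCartan (T := dat) rfl Cfsg.Agent.H378.WL.E6.row Cfsg.Agent.H378.E6Dat.chkR r hr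

/-- **The lattice data.** -/
theorem exists_nineLat {u : W} (hu : Cfsg.Agent.H607.R2.Nine hp cs u) : Nonempty (Cfsg.Agent.H808.R2.NineLat hp cs u) := by
  have hfin : Finite W := finite_W hp cs
  obtain ⟨v, i, hi, hv⟩ := exists_conj cs hp.isCartan (T := dat) rfl E6.row H378.E6Dat.chkR H378.E6Dat.chkC u
  have hi' : i < 25 := hi
  have hlen : (dat.R i).length ≤ 6 := by
    have h3 := lenR
    simp only [List.all_eq_true, decide_eq_true_eq] at h3
    exact h3 i (List.mem_range.2 hi')
  have pw : ∀ (n : ℕ) (x : Fin 6 → ℤ), rep cs hp.isCartan v (rep cs hp.isCartan (u ^ n) (rep cs hp.isCartan v⁻¹ x)) =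
      (lin 6 (dat.R i))^[n] x := by
    intro n
    induction n with
    | zero => intro x; rw [pow_zero, map_one, Module.End.one_apply, rep_apply_inv]; rfl
    | succ n ih =>
      intro x
      rw [Function.iterate_succ_apply, ← ih, ← hv, pow_succ, rep_mul_apply, rep_inv_apply]
  -- the class
  have h21 : i = 21 := by
    by_contra hne
    have h1 := chkN
    simp only [List.all_eq_true, Bool.or_eq_true, beq_iff_eq, List.any_eq_true, bne_iff_ne] at h1
    obtain ⟨j, hj, k, hk, h2⟩ := (h1 i (List.mem_range.2 hi')).resolve_left hne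
    apply h2
    have h3 := hu (rep cs hp.isCartan v⁻¹ (toF 6 (bv j)))
    have h4 := congrArg (rep cs hp.isCartan v) h3
    rw [map_add, map_add, pw 3, pw 6, rep_apply_inv, map_zero, ← Lk_toF hlen, ← Lk_toF hlen, add_assoc, ← toF_vadd,
      ← toF_vadd] at h4
    exact congrFun h4 ⟨k, List.mem_range.1 hk⟩
  subst h21
  set L := lin 6 (dat.R 21) with hL
  have hu1 : ∀ x, rep cs hp.isCartan v (rep cs hp.isCartan u x) = L (rep cs hp.isCartan v x) := by
    intro x
    have := hv (rep cs hp.isCartan v x)
    rwa [rep_inv_apply] at this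
  -- the sets
  set S : Set (Fin 6 → ℤ) := {a | Sg SL9 (rep cs hp.isCartan v a)} with hS
  set P : Fin 3 → Set (Fin 6 → ℤ) := fun i => {a | Sg (PL i) (rep cs hp.isCartan v a)} with hP
  have hinj := rep_injective_apply cs hp.isCartan v
  have hroot : ∀ a ∈ S, IsRoot cs hp.isCartan a := by
    rintro a ⟨r, hr, h⟩
    have h1 : IsRoot cs hp.isCartan (rep cs hp.isCartan v a) := by
      rcases h with h | h
      · rw [h]; exact root_g hp cs (SL9_lt hr)
      · rw [h]; exact (root_g hp cs (SL9_lt hr)).neg
    have h2 := h1.act v⁻¹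
    rwa [rep_inv_apply] at h2
  have hPS : ∀ i a, a ∈ P i → a ∈ S := by
    rintro i a ⟨r, hr, h⟩
    exact ⟨r, PL_lt i.2 hr, h⟩
  have hval : ∀ i : Fin 3, ((i + 1 : Fin 3) : ℕ) = ((i : ℕ) + 1) % 3 := by decide
  -- the subgroup in the coordinates of the table
  have hcomap : ∀ B : AddSubgroup (Fin 6 → ℤ), (∀ x ∈ B, rep cs hp.isCartan u x ∈ B) →
      ∃ B' : AddSubgroup (Fin 6 → ℤ), (∀ x, rep cs hp.isCartan v x ∈ B' ↔ x ∈ B) ∧ ∀ x ∈ B', L x ∈ B' := by
    intro B hB
    refine ⟨B.comap (rep cs hp.isCartan v⁻¹).toAddMonoidHom, fun x => ?_, fun x hx => ?_⟩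
    · rw [AddSubgroup.mem_comap]
      show rep cs hp.isCartan v⁻¹ (rep cs hp.isCartan v x) ∈ B ↔ _
      rw [rep_inv_apply]
    · rw [AddSubgroup.mem_comap] at hx ⊢
      have h1 : rep cs hp.isCartan v⁻¹ x ∈ B := hx
      show rep cs hp.isCartan v⁻¹ (L x) ∈ B
      have h2 := hu1 (rep cs hp.isCartan v⁻¹ x)
      rw [rep_apply_inv] at h2
      rw [← h2, rep_inv_apply]
      exact hB _ h1
  refine ⟨{ S := S, P := P, root := hroot, neg := fun a ha => ?_, card := ?_, mem := fun a => ?_, disj := fun i a ha => ?_,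
            act := fun i a ha => ?_, negP := fun i a ha => ?_, refl := fun w j hw i a ha => ?_, out := ?_,
            gen := fun B hB x hx hxS hxB => ?_, gen3 := fun B hB x hx hxB => ?_ }⟩
  · show Sg SL9 (rep cs hp.isCartan v (-a))
    rw [map_neg]
    exact Sg.neg ha
  · -- the number of roots
    have h1 : S = (fun r => rep cs hp.isCartan v⁻¹ (g r)) '' {r | r ∈ SL9} ∪
        (fun r => rep cs hp.isCartan v⁻¹ (-g r)) '' {r | r ∈ SL9} := by
      ext a
      constructor
      · rintro ⟨r, hr, h | h⟩
        · exact Or.inl ⟨r, hr, by show rep cs hp.isCartan v⁻¹ (g r) = a; rw [← h, rep_inv_apply]⟩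
        · exact Or.inr ⟨r, hr, by show rep cs hp.isCartan v⁻¹ (-g r) = a; rw [← h, rep_inv_apply]⟩
      · rintro (⟨r, hr, rfl⟩ | ⟨r, hr, rfl⟩)
        · exact ⟨r, hr, Or.inl (rep_apply_inv _ _ _ _)⟩
        · exact ⟨r, hr, Or.inr (rep_apply_inv _ _ _ _)⟩
    have hinj' := rep_injective_apply cs hp.isCartan v⁻¹
    have h2 : Set.InjOn (fun r => rep cs hp.isCartan v⁻¹ (g r)) {r | r ∈ SL9} := fun r hr s hs h =>
      g_ne (SL9_lt hr) (SL9_lt hs) (Or.inl (hinj' h))
    have h3 : Set.InjOn (fun r => rep cs hp.isCartan v⁻¹ (-g r)) {r | r ∈ SL9} := fun r hr s hs h =>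
      g_ne (SL9_lt hr) (SL9_lt hs) (Or.inl (neg_injective (hinj' h)))
    have h4 : ({r | r ∈ SL9} : Set ℕ).ncard = 9 := by
      have e : ({r | r ∈ SL9} : Set ℕ) = ↑SL9.toFinset := by
        ext r
        simp
      rw [e, Set.ncard_coe_finset]
      decide
    have hfin9 : ({r | r ∈ SL9} : Set ℕ).Finite := SL9.finite_toSet
    rw [h1, Set.ncard_union_eq ?_ (hfin9.image _) (hfin9.image _), h2.ncard_image, h3.ncard_image, h4]
    rw [Set.disjoint_left]
    rintro _ ⟨r, hr, rfl⟩ ⟨s, hs, h⟩
    have h5 := hinj' h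
    have h6 := g_ne (SL9_lt hr) (SL9_lt hs) (Or.inr h5.symm)
    subst h6
    exact g_ne_neg (SL9_lt hr) h5.symm
  · constructor
    · rintro ⟨r, hr, h⟩
      have h1 := chkP
      simp only [List.all_eq_true, List.any_eq_true, List.mem_range, List.contains_iff_mem] at h1
      obtain ⟨i, hi, h2⟩ := h1 r hr
      exact ⟨⟨i, hi⟩, r, h2, h⟩
    · rintro ⟨i, h⟩
      exact hPS i a h
  · rintro ⟨s, hs, h⟩
    obtain ⟨r, hr, h'⟩ := ha
    have h1 := chkP'
    simp only [List.all_eq_true, Bool.and_eq_true, Bool.not_eq_true'] at h1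
    have h2 := (h1 i (List.mem_range.2 i.2) r hr).2
    have hsr : r = s := by
      refine g_ne (SL9_lt (PL_lt i.2 hr)) (SL9_lt (PL_lt (i + 1).2 hs)) ?_
      rcases h with h | h <;> rcases h' with h' | h'
      · exact Or.inl (h'.symm.trans h)
      · right
        have := h'.symm.trans h
        rw [← this, neg_neg]
      · exact Or.inr (h'.symm.trans h)
      · exact Or.inl (neg_injective (h'.symm.trans h))
    subst hsr
    rw [hval] at hs
    have h3 : List.contains (PL (((i : ℕ) + 1) % 3)) r = true := List.contains_iff_mem.2 hs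
    rw [h2] at h3
    exact Bool.false_ne_true h3
  · obtain ⟨r, hr, h⟩ := ha
    have h1 := chkAct
    simp only [List.all_eq_true, List.any_eq_true, Bool.or_eq_true] at h1
    obtain ⟨s, hs, h2⟩ := h1 i (List.mem_range.2 i.2) r hr
    show Sg (PL (i + 1 : Fin 3)) (rep cs hp.isCartan v (rep cs hp.isCartan u a))
    rw [hval, hu1]
    have h3 : Sg (PL (((i : ℕ) + 1) % 3)) (L (g r)) := by
      refine ⟨s, hs, ?_⟩
      unfold g
      rw [hL, lin_toF lenR21]
      rcases h2 with h2 | h2
      · exact Or.inl (toF_veq h2)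
      · right
        rw [toF_veq h2, toF_vsm, neg_one_smul]
    rcases h with h | h
    · rw [h]; exact h3
    · rw [h, map_neg]; exact h3.neg
  · show Sg (PL i) (rep cs hp.isCartan v (-a))
    rw [map_neg]
    exact Sg.neg ha
  · -- reflections
    obtain ⟨r, hr, h⟩ := hw
    obtain ⟨t, ht, h'⟩ := ha
    set b := rep cs hp.isCartan w (sr j) with hb
    have hbr : IsRoot cs hp.isCartan b := ⟨w, j, rfl⟩
    show Sg (PL i) (rep cs hp.isCartan v (rep cs hp.isCartan (rfl' cs w j) a))
    rw [rep_rfl'_eq, ← hb, map_sub, map_zsmul, ← cpr_rep cs hp.isCartan v a hbr]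
    have h1 := chkRefl
    simp only [List.all_eq_true, List.any_eq_true, Bool.or_eq_true] at h1
    obtain ⟨s, hs, h2⟩ := h1 r hr i (List.mem_range.2 i.2) t ht
    have hr36 := SL9_lt hr
    have hdot : dot (dat.cor r) (dat.gam t) = cpr cs hp.isCartan (g t) (g r) :=
      Cfsg.Agent.H106.QT.dot_cpr hp cs (T := dat) rfl E6.row H378.E6Dat.chkR E6.chkN hr36
    have h3 : Sg (PL i) (g t - cpr cs hp.isCartan (g t) (g r) • g r) := by
      refine ⟨s, hs, ?_⟩
      have e : g t - cpr cs hp.isCartan (g t) (g r) • g r =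
          toF 6 (vadd (dat.gam t) (vsm (-dot (dat.cor r) (dat.gam t)) (dat.gam r))) := by
        rw [toF_vadd, toF_vsm, hdot, neg_smul, sub_eq_add_neg]
        rfl
      rw [e]
      rcases h2 with h2 | h2
      · exact Or.inl (toF_veq h2)
      · right
        rw [toF_veq h2, toF_vsm, neg_one_smul]
        rfl
    have hgr := root_g hp cs hr36
    -- the sign of `b` is irrelevant
    have h4 : ∀ x, x - cpr cs hp.isCartan x (rep cs hp.isCartan v b) • rep cs hp.isCartan v b =
        x - cpr cs hp.isCartan x (g r) • g r := by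
      intro x
      rcases h with h | h
      · rw [h]
      · rw [h, cpr_neg_right cs hp.isCartan x hgr, neg_smul_neg]
    rw [h4]
    rcases h' with h' | h'
    · rw [h']; exact h3
    · rw [h', cpr_neg cs hp.isCartan _ hgr]
      have h5 := h3.neg
      have e : -(g t - cpr cs hp.isCartan (g t) (g r) • g r) = -g t - (-cpr cs hp.isCartan (g t) (g r)) • g r := by
        module
      rwa [e] at h5
  · refine ⟨rep cs hp.isCartan v⁻¹ (g 0), (root_g hp cs (by norm_num)).act _, ?_⟩
    rintro ⟨r, hr, h⟩
    rw [rep_apply_inv] at h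
    have h1 := g_ne (r := 0) (s := r) (by norm_num) (SL9_lt hr) h
    subst h1
    exact absurd hr (by decide)
  · obtain ⟨B', h1, h2⟩ := hcomap B hB
    obtain ⟨r, hr, h⟩ := root_ex hp cs (hx.act v)
    have hr9 : r ∉ SL9 := fun h9 => hxS ⟨r, h9, h⟩
    have h3 : g r ∈ B' := by
      have h4 := (h1 x).2 hxB
      rcases h with h | h
      · rwa [h] at h4
      · rw [h] at h4
        have := B'.neg_mem h4
        rwa [neg_neg] at this
    have h4 := gen_out h2 hr hr9 h3
    rw [eq_top_iff]
    intro y _
    rw [← h1, h4]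
    trivial
  · obtain ⟨B', h1, h2⟩ := hcomap B hB
    obtain ⟨r, hr, h⟩ := hx
    have h3 : g r ∈ B' := by
      have h4 := (h1 x).2 hxB
      rcases h with h | h
      · rwa [h] at h4
      · rw [h] at h4
        have := B'.neg_mem h4
        rwa [neg_neg] at this
    obtain ⟨h4, h5⟩ := gen_in h2 hr h3
    constructor
    · rintro a ⟨s, hs, h'⟩
      rw [← h1]
      rcases h' with h' | h'
      · rw [h']; exact h4 s hs
      · rw [h']; exact B'.neg_mem (h4 s hs)
    · intro y
      rw [← h1, map_zsmul]
      exact h5 _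

end Cfsg.Agent.H56.RG.Nine
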