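import Cfsg.Agent.H92.NE.Fam

/-!
# S3509: highest roots of components, simply laced (helper56)

`SL hp B` : `B` is an invariant form with `B a a = 2` for the roots and values `0, 1, -1` on two roots `a ≠ ± b`.
`exists_high` : a nonempty connected component `Ψ` (diameter `≤ 2`) of a closed symmetric set `S` of roots has exactly
one `β ≥ 0` with `β + a` not a root for all `a ≥ 0` of `S`; `exists_fixed` : it is fixed by the maps stabilising
`S`, its positive part and `Ψ`.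
-/

set_option autoImplicit false
set_option linter.unusedSectionVars false

namespace Cfsg.Agent.H56.RG

open CoxeterSystem Cfsg Cfsg.Lie Cfsg.Lie.ChevalleyDatum
open Cfsg.Agent.ChevalleyStructure Cfsg.Agent.ChevalleyStructure.Elts Cfsg.Agent.ChevalleyStructure.CoxeterGeom
  Cfsg.Agent.ChevalleyStructure.CoxeterGeomTypes Cfsg.Agent.ChevalleyStructure.NPerm
open Cfsg.Agent.Tits.Roots Cfsg.Agent.Tits.Core Cfsg.Agent.Nodes Cfsg.Agent.Nodes.Reps Cfsg.Agent.Nodes.BNOf
  Cfsg.Agent.Nodes.RGDChev Cfsg.Agent.Nodes.Bruhat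

variable {D : ChevalleyDatum} {l : ℕ} {M : CoxeterMatrix (Fin l)} (hp : IsType D l M)

/-- a form for a simply laced root system -/
structure SL (B : (Fin l → ℤ) → (Fin l → ℤ) → ℤ) : Prop where
  symm : ∀ x y, B x y = B y x
  add : ∀ x y z, B (x + y) z = B x z + B y z
  inv : ∀ w x y, B (rep M.toCoxeterSystem hp.isCartan w x) (rep M.toCoxeterSystem hp.isCartan w y) = B x y
  two : ∀ a, IsRoot M.toCoxeterSystem hp.isCartan a → B a a = 2
  rng : ∀ a b, IsRoot M.toCoxeterSystem hp.isCartan a → IsRoot M.toCoxeterSystem hp.isCartan b →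
    a = b ∨ a = -b ∨ B a b = 0 ∨ B a b = 1 ∨ B a b = -1
  sub : ∀ a b, IsRoot M.toCoxeterSystem hp.isCartan a → IsRoot M.toCoxeterSystem hp.isCartan b → B a b = 1 →
    IsRoot M.toCoxeterSystem hp.isCartan (a - b)

namespace SL

variable {hp} {B : (Fin l → ℤ) → (Fin l → ℤ) → ℤ} (H : SL hp B)

include H

theorem add' (x y z : Fin l → ℤ) : B x (y + z) = B x y + B x z := by
  rw [H.symm, H.add, H.symm y, H.symm z]

theorem zero (x : Fin l → ℤ) : B 0 x = 0 := by
  have h := H.add 0 0 x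
  rw [add_zero] at h
  omega

theorem neg (x y : Fin l → ℤ) : B (-x) y = - B x y := by
  have h := H.add x (-x) y
  rw [add_neg_cancel, H.zero] at h
  omega

theorem neg' (x y : Fin l → ℤ) : B x (-y) = - B x y := by
  rw [H.symm, H.neg, H.symm]

theorem subl (x y z : Fin l → ℤ) : B (x - y) z = B x z - B y z := by
  rw [sub_eq_add_neg, H.add, H.neg]; ring

theorem subr (x y z : Fin l → ℤ) : B x (y - z) = B x y - B x z := by
  rw [sub_eq_add_neg, H.add', H.neg']; ring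

theorem root_add {a b : Fin l → ℤ} (ha : IsRoot M.toCoxeterSystem hp.isCartan a)
    (hb : IsRoot M.toCoxeterSystem hp.isCartan b) (h : B a b = -1) : IsRoot M.toCoxeterSystem hp.isCartan (a + b) := by
  have h1 := H.sub a (-b) ha hb.neg (by rw [H.neg', h]; rfl)
  rwa [sub_neg_eq_add] at h1

theorem of_add {a b : Fin l → ℤ} (ha : IsRoot M.toCoxeterSystem hp.isCartan a)
    (hb : IsRoot M.toCoxeterSystem hp.isCartan b) (h : IsRoot M.toCoxeterSystem hp.isCartan (a + b)) : B a b = -1 := by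
  have h1 := H.two _ h
  rw [H.add, H.add', H.add', H.two a ha, H.two b hb, H.symm b a] at h1
  omega

theorem of_sub {a b : Fin l → ℤ} (ha : IsRoot M.toCoxeterSystem hp.isCartan a)
    (hb : IsRoot M.toCoxeterSystem hp.isCartan b) (h : IsRoot M.toCoxeterSystem hp.isCartan (a - b)) : B a b = 1 := by
  rw [sub_eq_add_neg] at h
  have h1 := H.of_add ha hb.neg h
  rw [H.neg'] at h1
  omega

/-- **The highest root of a component.** -/
theorem exists_high {S Ψ : Set (Fin l → ℤ)} (hS : ∀ a ∈ S, IsRoot M.toCoxeterSystem hp.isCartan a)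
    (hneg : ∀ a ∈ S, -a ∈ S)
    (hadd : ∀ a ∈ S, ∀ b ∈ S, IsRoot M.toCoxeterSystem hp.isCartan (a + b) → a + b ∈ S) (hΨ : Ψ ⊆ S)
    (hne : Ψ.Nonempty) (hcl : ∀ a ∈ Ψ, ∀ b ∈ S, B a b ≠ 0 → b ∈ Ψ)
    (hconn : ∀ a ∈ Ψ, ∀ b ∈ Ψ, B a b ≠ 0 ∨ ∃ c ∈ Ψ, B a c ≠ 0 ∧ B c b ≠ 0) :
    ∃ β ∈ Ψ, 0 ≤ β ∧ (∀ a ∈ S, 0 ≤ a → ¬ IsRoot M.toCoxeterSystem hp.isCartan (β + a)) ∧
      ∀ β' ∈ Ψ, 0 ≤ β' → (∀ a ∈ S, 0 ≤ a → ¬ IsRoot M.toCoxeterSystem hp.isCartan (β' + a)) → β' = β := by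
  have hnegΨ : ∀ a ∈ Ψ, -a ∈ Ψ := fun a ha => hcl a ha _ (hneg a (hΨ ha)) (by
    rw [H.neg', H.two a (hS a (hΨ ha))]; decide)
  -- the maximal roots are nonnegative on positive ones
  have mx : ∀ β ∈ Ψ, (∀ a ∈ S, 0 ≤ a → ¬ IsRoot M.toCoxeterSystem hp.isCartan (β + a)) → ∀ a ∈ S, 0 ≤ a →
      B β a ≠ -1 := fun β hβ h a ha h0 e => h a ha h0 (H.root_add (hS _ (hΨ hβ)) (hS _ ha) e)
  -- existence
  have hfin : {a : Fin l → ℤ | IsRoot M.toCoxeterSystem hp.isCartan a}.Finite := by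
    have : {a : Fin l → ℤ | IsRoot M.toCoxeterSystem hp.isCartan a} ⊆ Set.range (fun r : Fin D.nroots => vec D l r) := by
      intro a ha
      obtain ⟨r, hr, e⟩ := (isRoot_iff hp M.toCoxeterSystem a).1 ha
      exact ⟨⟨r, hr⟩, e⟩
    exact (Set.finite_range _).subset this
  have hΨpos : ∃ β ∈ Ψ, 0 ≤ β := by
    obtain ⟨a, ha⟩ := hne
    rcases (hS a (hΨ ha)).pos_or_neg with h | h
    · exact ⟨a, ha, h⟩
    · exact ⟨-a, hnegΨ a ha, by
        intro i
        have := h i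
        simp only [Pi.zero_apply, Pi.neg_apply] at this ⊢
        omega⟩
  obtain ⟨β, ⟨hβ, hβ0⟩, hmax⟩ := Set.exists_max_image {a | a ∈ Ψ ∧ 0 ≤ a} (fun a => ∑ i, a i)
    (hfin.subset fun a ha => hS a (hΨ ha.1)) hΨpos
  have hβm : ∀ a ∈ S, 0 ≤ a → ¬ IsRoot M.toCoxeterSystem hp.isCartan (β + a) := by
    intro a ha h0 hr
    have h1 : β + a ∈ Ψ := by
      refine hcl β hβ _ (hadd _ (hΨ hβ) _ ha hr) ?_
      rw [H.add', H.two β (hS _ (hΨ hβ)), H.of_add (hS _ (hΨ hβ)) (hS _ ha) hr]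
      decide
    have h2 := hmax (β + a) ⟨h1, add_nonneg hβ0 h0⟩
    simp only [Pi.add_apply, Finset.sum_add_distrib] at h2
    have h3 : ∀ i, 0 ≤ a i := fun i => h0 i
    have h4 : ∑ i, a i = 0 := le_antisymm (by omega) (Finset.sum_nonneg fun i _ => h3 i)
    have h5 : a = 0 := by
      funext i
      exact (Finset.sum_eq_zero_iff_of_nonneg fun i _ => h3 i).1 h4 i (Finset.mem_univ i)
    exact (hS a ha).ne_zero h5
  refine ⟨β, hβ, hβ0, hβm, fun β' hβ' hβ0' hβm' => ?_⟩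
  by_contra hne'
  have hr := hS _ (hΨ hβ)
  have hr' := hS _ (hΨ hβ')
  -- orthogonal
  have h0 : B β β' = 0 := by
    rcases H.rng β β' hr hr' with h | h | h | h | h
    · exact absurd h.symm hne'
    · exfalso
      apply hr.ne_zero
      funext i
      have h1 := hβ0 i
      have h2 := hβ0' i
      have h3 := congrFun h i
      simp only [Pi.zero_apply, Pi.neg_apply] at h1 h2 h3 ⊢
      omega
    · exact h
    · exfalso
      have h1 := H.sub _ _ hr hr' h
      have h1S : β - β' ∈ S := by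
        rw [sub_eq_add_neg] at h1 ⊢
        exact hadd _ (hΨ hβ) _ (hneg _ (hΨ hβ')) h1
      rcases h1.pos_or_neg with h2 | h2
      · exact hβm' _ h1S h2 (by rw [add_sub_cancel]; exact hr)
      · refine hβm _ (hneg _ h1S) (by
          intro i
          have := h2 i
          simp only [Pi.zero_apply, Pi.neg_apply] at this ⊢
          omega) (by rw [neg_sub, add_sub_cancel]; exact hr')
    · exact absurd h (mx β hβ hβm _ (hΨ hβ') hβ0')
  rcases hconn β hβ β' hβ' with h | ⟨c, hc, hc1, hc2⟩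
  · exact h h0
  -- a positive root
  have key : ∀ c ∈ Ψ, 0 ≤ c → B β c ≠ 0 → B c β' ≠ 0 → False := by
    intro c hc hc0 hc1 hc2
    have hcr := hS _ (hΨ hc)
    have e1 : B β c = 1 := by
      rcases H.rng β c hr hcr with h | h | h | h | h
      · exact absurd (by rw [← h]; exact h0) hc2
      · exfalso
        apply hr.ne_zero
        funext i
        have h1 := hβ0 i
        have h2 := hc0 i
        have h3 := congrFun h i
        simp only [Pi.zero_apply, Pi.neg_apply] at h1 h2 h3 ⊢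
        omega
      · exact absurd h hc1
      · exact h
      · exact absurd h (mx β hβ hβm _ (hΨ hc) hc0)
    have e2 : B c β' = 1 := by
      rcases H.rng c β' hcr hr' with h | h | h | h | h
      · exact absurd (by rw [h]; exact h0) hc1
      · exfalso
        apply hr'.ne_zero
        funext i
        have h1 := hβ0' i
        have h2 := hc0 i
        have h3 := congrFun h i
        simp only [Pi.zero_apply, Pi.neg_apply] at h1 h2 h3 ⊢
        omega
      · exact absurd h hc2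
      · exact h
      · rw [H.symm] at h
        exact absurd h (mx β' hβ' hβm' _ (hΨ hc) hc0)
    have h1 := H.sub _ _ hr hcr e1
    have h1S : β - c ∈ S := by
      rw [sub_eq_add_neg] at h1 ⊢
      exact hadd _ (hΨ hβ) _ (hneg _ (hΨ hc)) h1
    rcases h1.pos_or_neg with h2 | h2
    · refine mx β' hβ' hβm' _ h1S h2 ?_
      rw [H.subr, H.symm β' β, h0, H.symm β' c, e2]
      rfl
    · refine hβm _ (hneg _ h1S) (by
        intro i
        have := h2 i
        simp only [Pi.zero_apply, Pi.neg_apply] at this ⊢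
        omega) (by rw [neg_sub, add_sub_cancel]; exact hcr)
  rcases (hS _ (hΨ hc)).pos_or_neg with h | h
  · exact key c hc h hc1 hc2
  · refine key (-c) (hnegΨ c hc) (by
      intro i
      have := h i
      simp only [Pi.zero_apply, Pi.neg_apply] at this ⊢
      omega) ?_ ?_
    · rw [H.neg']; omega
    · rw [H.neg]; omega

/-- **The highest root of a stable component is fixed.** -/
theorem exists_fixed {S Ψ : Set (Fin l → ℤ)} (hS : ∀ a ∈ S, IsRoot M.toCoxeterSystem hp.isCartan a)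
    (hneg : ∀ a ∈ S, -a ∈ S)
    (hadd : ∀ a ∈ S, ∀ b ∈ S, IsRoot M.toCoxeterSystem hp.isCartan (a + b) → a + b ∈ S) (hΨ : Ψ ⊆ S)
    (hne : Ψ.Nonempty) (hcl : ∀ a ∈ Ψ, ∀ b ∈ S, B a b ≠ 0 → b ∈ Ψ)
    (hconn : ∀ a ∈ Ψ, ∀ b ∈ Ψ, B a b ≠ 0 ∨ ∃ c ∈ Ψ, B a c ≠ 0 ∧ B c b ≠ 0)
    {θ : (Fin l → ℤ) ≃+ (Fin l → ℤ)} (hθr : ∀ a, IsRoot M.toCoxeterSystem hp.isCartan (θ a) ↔
      IsRoot M.toCoxeterSystem hp.isCartan a) (hθS : ∀ a, θ a ∈ S ↔ a ∈ S) (hθp : ∀ a ∈ S, 0 ≤ a → 0 ≤ θ a)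
    (hθΨ : ∀ a ∈ Ψ, θ a ∈ Ψ) :
    ∃ β ∈ Ψ, 0 ≤ β ∧ (∀ a ∈ S, 0 ≤ a → ¬ IsRoot M.toCoxeterSystem hp.isCartan (β + a)) ∧ θ β = β := by
  obtain ⟨β, hβ, hβ0, hm, hu⟩ := H.exists_high hS hneg hadd hΨ hne hcl hconn
  refine ⟨β, hβ, hβ0, hm, hu (θ β) (hθΨ β hβ) (hθp β (hΨ hβ) hβ0) fun a ha h0 hr => ?_⟩
  have h1 : θ.symm a ∈ S := (hθS _).1 (by rw [θ.apply_symm_apply]; exact ha)
  have h2 : 0 ≤ θ.symm a := by
    rcases (hS _ h1).pos_or_neg with h | h
    · exact h
    · exfalso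
      have h3 : 0 ≤ -θ.symm a := by
        intro i
        have := h i
        simp only [Pi.zero_apply, Pi.neg_apply] at this ⊢
        omega
      have h4 := hθp _ (hneg _ h1) h3
      rw [map_neg, θ.apply_symm_apply] at h4
      apply (hS a ha).ne_zero
      funext i
      have h5 := h4 i
      have h6 := h0 i
      simp only [Pi.zero_apply, Pi.neg_apply] at h5 h6 ⊢
      omega
  refine hm _ h1 h2 ?_
  rw [← hθr, map_add, θ.apply_symm_apply]
  exact hr

end SL

end Cfsg.Agent.H56.RG
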