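import Cfsg.Agent.H378.WL.E6
import Cfsg.Agent.H931.KC.Alcove
import Cfsg.Agent.H56.RG.Simp

/-!
# S3509: the table of the subsets of the extended diagram of `E₆` (helper56)

`sl6` : the invariant form; `exists_tab` : for Kac coordinates `c`, `c0` (not all `0`) the positive roots `γ r`, `r ∈ P`, with
`∀ i, γ i ≠ 0 → c i = 0` or `c0 = 0 ∧ ∀ i, γ i ≠ hr i → c i = 0`; `Q` : those in components of rank `≥ 2`; `Q ≠ []` is connected,
or `2 |P| + rk ≤ 16`, `rk ≤ 4`, or type `A₁ + 2 A₂` (`c 3 ≠ 0`), or type `3 A₂` (`c 3 ≠ 0`, the others `0`).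
-/

set_option autoImplicit false
set_option linter.unusedSectionVars false
set_option maxRecDepth 100000

namespace Cfsg.Agent.H56.RG.E6

open CoxeterSystem Cfsg Cfsg.Lie Cfsg.Lie.ChevalleyDatum
open Cfsg.Agent.ChevalleyStructure Cfsg.Agent.ChevalleyStructure.Elts Cfsg.Agent.ChevalleyStructure.CoxeterGeom
  Cfsg.Agent.ChevalleyStructure.CoxeterGeomTypes Cfsg.Agent.ChevalleyStructure.NPerm
open Cfsg.Agent.Tits.Roots Cfsg.Agent.Tits.Core Cfsg.Agent.Nodes Cfsg.Agent.Nodes.Reps Cfsg.Agent.Nodes.BNOf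
  Cfsg.Agent.Nodes.RGDChev Cfsg.Agent.Nodes.Bruhat
open Cfsg.Agent.H378.Eng Cfsg.Agent.H56.RG
open Cfsg.Agent.H129.TorusChar Cfsg.Agent.H129.WData
open Cfsg.Agent.H378.E6Dat (dat)
open Cfsg.Agent.H92.NE (bl bl_apply bl_comm bl_sr bl_sr_sr FormOK bl_rep)

/-- the adjacency masks -/
def adjM : List ℕ := [
  6173448516, 51631881096, 15889920969, 26569117654, 16779804584, 3221153296, 12296366733, 43668698206, 24104172575,
  24822149246, 14358780344, 21261919579, 41234696087, 41926003702, 27726382007, 23496300142, 38490136275, 30524594931,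
  44860241983, 40752049638, 29181994407, 47749505403, 32826113251, 53121153001, 46407753263, 56668401325, 49961060203,
  55326708217, 62322105700, 58222037181, 64585854545, 61158275956, 61847811861, 59415872732, 51452758794, 34354311298]

/-- subset of the extended diagram, positive roots, roots in components of rank `≥ 2` -/
def tab : List (ℕ × List ℕ × List ℕ) := [
  (0, [], []), (1, [0], []), (2, [1], []), (3, [0, 1], []), (4, [2], []), (5, [0, 2, 6], [0, 2, 6]), (6, [1, 2], []),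
  (7, [0, 1, 2, 6], [0, 2, 6]), (8, [3], []), (9, [0, 3], []), (10, [1, 3, 7], [1, 3, 7]), (11, [0, 1, 3, 7], [1, 3,
  7]), (12, [2, 3, 8], [2, 3, 8]), (13, [0, 2, 3, 6, 8, 11], [0, 2, 3, 6, 8, 11]), (14, [1, 2, 3, 7, 8, 12], [1, 2, 3,
  7, 8, 12]), (15, [0, 1, 2, 3, 6, 7, 8, 11, 12, 16], [0, 1, 2, 3, 6, 7, 8, 11, 12, 16]), (16, [4], []), (17, [0, 4],
  []), (18, [1, 4], []), (19, [0, 1, 4], []), (20, [2, 4], []), (21, [0, 2, 4, 6], [0, 2, 6]), (22, [1, 2, 4], []), (23,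
  [0, 1, 2, 4, 6], [0, 2, 6]), (24, [3, 4, 9], [3, 4, 9]), (25, [0, 3, 4, 9], [3, 4, 9]), (26, [1, 3, 4, 7, 9, 13], [1,
  3, 4, 7, 9, 13]), (27, [0, 1, 3, 4, 7, 9, 13], [1, 3, 4, 7, 9, 13]), (28, [2, 3, 4, 8, 9, 14], [2, 3, 4, 8, 9, 14]),
  (29, [0, 2, 3, 4, 6, 8, 9, 11, 14, 17], [0, 2, 3, 4, 6, 8, 9, 11, 14, 17]), (30, [1, 2, 3, 4, 7, 8, 9, 12, 13, 14, 18,
  23], [1, 2, 3, 4, 7, 8, 9, 12, 13, 14, 18, 23]), (31, [0, 1, 2, 3, 4, 6, 7, 8, 9, 11, 12, 13, 14, 16, 17, 18, 21, 23,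
  25, 28], [0, 1, 2, 3, 4, 6, 7, 8, 9, 11, 12, 13, 14, 16, 17, 18, 21, 23, 25, 28]), (32, [5], []), (33, [0, 5], []),
  (34, [1, 5], []), (35, [0, 1, 5], []), (36, [2, 5], []), (37, [0, 2, 5, 6], [0, 2, 6]), (38, [1, 2, 5], []), (39, [0,
  1, 2, 5, 6], [0, 2, 6]), (40, [3, 5], []), (41, [0, 3, 5], []), (42, [1, 3, 5, 7], [1, 3, 7]), (43, [0, 1, 3, 5, 7],
  [1, 3, 7]), (44, [2, 3, 5, 8], [2, 3, 8]), (45, [0, 2, 3, 5, 6, 8, 11], [0, 2, 3, 6, 8, 11]), (46, [1, 2, 3, 5, 7, 8,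
  12], [1, 2, 3, 7, 8, 12]), (47, [0, 1, 2, 3, 5, 6, 7, 8, 11, 12, 16], [0, 1, 2, 3, 6, 7, 8, 11, 12, 16]), (48, [4, 5,
  10], [4, 5, 10]), (49, [0, 4, 5, 10], [4, 5, 10]), (50, [1, 4, 5, 10], [4, 5, 10]), (51, [0, 1, 4, 5, 10], [4, 5,
  10]), (52, [2, 4, 5, 10], [4, 5, 10]), (53, [0, 2, 4, 5, 6, 10], [0, 2, 4, 5, 6, 10]), (54, [1, 2, 4, 5, 10], [4, 5,
  10]), (55, [0, 1, 2, 4, 5, 6, 10], [0, 2, 4, 5, 6, 10]), (56, [3, 4, 5, 9, 10, 15], [3, 4, 5, 9, 10, 15]), (57, [0, 3,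
  4, 5, 9, 10, 15], [3, 4, 5, 9, 10, 15]), (58, [1, 3, 4, 5, 7, 9, 10, 13, 15, 19], [1, 3, 4, 5, 7, 9, 10, 13, 15, 19]),
  (59, [0, 1, 3, 4, 5, 7, 9, 10, 13, 15, 19], [1, 3, 4, 5, 7, 9, 10, 13, 15, 19]), (60, [2, 3, 4, 5, 8, 9, 10, 14, 15,
  20], [2, 3, 4, 5, 8, 9, 10, 14, 15, 20]), (61, [0, 2, 3, 4, 5, 6, 8, 9, 10, 11, 14, 15, 17, 20, 22], [0, 2, 3, 4, 5,
  6, 8, 9, 10, 11, 14, 15, 17, 20, 22]), (62, [1, 2, 3, 4, 5, 7, 8, 9, 10, 12, 13, 14, 15, 18, 19, 20, 23, 24, 27, 30],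
  [1, 2, 3, 4, 5, 7, 8, 9, 10, 12, 13, 14, 15, 18, 19, 20, 23, 24, 27, 30]), (63, [0, 1, 2, 3, 4, 5, 6, 7, 8, 9, 10, 11,
  12, 13, 14, 15, 16, 17, 18, 19, 20, 21, 22, 23, 24, 25, 26, 27, 28, 29, 30, 31, 32, 33, 34, 35], [0, 1, 2, 3, 4, 5, 6,
  7, 8, 9, 10, 11, 12, 13, 14, 15, 16, 17, 18, 19, 20, 21, 22, 23, 24, 25, 26, 27, 28, 29, 30, 31, 32, 33, 34, 35]),
  (64, [35], []), (65, [0, 35], []), (66, [1, 34, 35], [1, 34, 35]), (67, [0, 1, 34, 35], [1, 34, 35]), (68, [2, 35],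
  []), (69, [0, 2, 6, 35], [0, 2, 6]), (70, [1, 2, 34, 35], [1, 34, 35]), (71, [0, 1, 2, 6, 34, 35], [0, 1, 2, 6, 34,
  35]), (72, [3, 35], []), (73, [0, 3, 35], []), (74, [1, 3, 7, 33, 34, 35], [1, 3, 7, 33, 34, 35]), (75, [0, 1, 3, 7,
  33, 34, 35], [1, 3, 7, 33, 34, 35]), (76, [2, 3, 8, 35], [2, 3, 8]), (77, [0, 2, 3, 6, 8, 11, 35], [0, 2, 3, 6, 8,
  11]), (78, [1, 2, 3, 7, 8, 12, 32, 33, 34, 35], [1, 2, 3, 7, 8, 12, 32, 33, 34, 35]), (79, [0, 1, 2, 3, 6, 7, 8, 11,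
  12, 16, 30, 32, 33, 34, 35], [0, 1, 2, 3, 6, 7, 8, 11, 12, 16, 30, 32, 33, 34, 35]), (80, [4, 35], []), (81, [0, 4,
  35], []), (82, [1, 4, 34, 35], [1, 34, 35]), (83, [0, 1, 4, 34, 35], [1, 34, 35]), (84, [2, 4, 35], []), (85, [0, 2,
  4, 6, 35], [0, 2, 6]), (86, [1, 2, 4, 34, 35], [1, 34, 35]), (87, [0, 1, 2, 4, 6, 34, 35], [0, 1, 2, 6, 34, 35]), (88,
  [3, 4, 9, 35], [3, 4, 9]), (89, [0, 3, 4, 9, 35], [3, 4, 9]), (90, [1, 3, 4, 7, 9, 13, 31, 33, 34, 35], [1, 3, 4, 7,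
  9, 13, 31, 33, 34, 35]), (91, [0, 1, 3, 4, 7, 9, 13, 31, 33, 34, 35], [1, 3, 4, 7, 9, 13, 31, 33, 34, 35]), (92, [2,
  3, 4, 8, 9, 14, 35], [2, 3, 4, 8, 9, 14]), (93, [0, 2, 3, 4, 6, 8, 9, 11, 14, 17, 35], [0, 2, 3, 4, 6, 8, 9, 11, 14,
  17]), (94, [1, 2, 3, 4, 7, 8, 9, 12, 13, 14, 18, 22, 23, 26, 29, 31, 32, 33, 34, 35], [1, 2, 3, 4, 7, 8, 9, 12, 13,
  14, 18, 22, 23, 26, 29, 31, 32, 33, 34, 35]), (95, [0, 1, 2, 3, 4, 5, 6, 7, 8, 9, 10, 11, 12, 13, 14, 15, 16, 17, 18,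
  19, 20, 21, 22, 23, 24, 25, 26, 27, 28, 29, 30, 31, 32, 33, 34, 35], [0, 1, 2, 3, 4, 5, 6, 7, 8, 9, 10, 11, 12, 13,
  14, 15, 16, 17, 18, 19, 20, 21, 22, 23, 24, 25, 26, 27, 28, 29, 30, 31, 32, 33, 34, 35]), (96, [5, 35], []), (97, [0,
  5, 35], []), (98, [1, 5, 34, 35], [1, 34, 35]), (99, [0, 1, 5, 34, 35], [1, 34, 35]), (100, [2, 5, 35], []), (101, [0,
  2, 5, 6, 35], [0, 2, 6]), (102, [1, 2, 5, 34, 35], [1, 34, 35]), (103, [0, 1, 2, 5, 6, 34, 35], [0, 1, 2, 6, 34, 35]),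
  (104, [3, 5, 35], []), (105, [0, 3, 5, 35], []), (106, [1, 3, 5, 7, 33, 34, 35], [1, 3, 7, 33, 34, 35]), (107, [0, 1,
  3, 5, 7, 33, 34, 35], [1, 3, 7, 33, 34, 35]), (108, [2, 3, 5, 8, 35], [2, 3, 8]), (109, [0, 2, 3, 5, 6, 8, 11, 35],
  [0, 2, 3, 6, 8, 11]), (110, [1, 2, 3, 5, 7, 8, 12, 32, 33, 34, 35], [1, 2, 3, 7, 8, 12, 32, 33, 34, 35]), (111, [0, 1,
  2, 3, 5, 6, 7, 8, 11, 12, 16, 30, 32, 33, 34, 35], [0, 1, 2, 3, 6, 7, 8, 11, 12, 16, 30, 32, 33, 34, 35]), (112, [4,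
  5, 10, 35], [4, 5, 10]), (113, [0, 4, 5, 10, 35], [4, 5, 10]), (114, [1, 4, 5, 10, 34, 35], [1, 4, 5, 10, 34, 35]),
  (115, [0, 1, 4, 5, 10, 34, 35], [1, 4, 5, 10, 34, 35]), (116, [2, 4, 5, 10, 35], [4, 5, 10]), (117, [0, 2, 4, 5, 6,
  10, 35], [0, 2, 4, 5, 6, 10]), (118, [1, 2, 4, 5, 10, 34, 35], [1, 4, 5, 10, 34, 35]), (119, [0, 1, 2, 4, 5, 6, 10,
  34, 35], [0, 1, 2, 4, 5, 6, 10, 34, 35]), (120, [3, 4, 5, 9, 10, 15, 35], [3, 4, 5, 9, 10, 15]), (121, [0, 3, 4, 5, 9,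
  10, 15, 35], [3, 4, 5, 9, 10, 15]), (122, [1, 3, 4, 5, 7, 9, 10, 13, 15, 19, 28, 31, 33, 34, 35], [1, 3, 4, 5, 7, 9,
  10, 13, 15, 19, 28, 31, 33, 34, 35]), (123, [0, 1, 3, 4, 5, 7, 9, 10, 13, 15, 19, 28, 31, 33, 34, 35], [1, 3, 4, 5, 7,
  9, 10, 13, 15, 19, 28, 31, 33, 34, 35]), (124, [2, 3, 4, 5, 8, 9, 10, 14, 15, 20, 35], [2, 3, 4, 5, 8, 9, 10, 14, 15,
  20]), (125, [0, 2, 3, 4, 5, 6, 8, 9, 10, 11, 14, 15, 17, 20, 22, 35], [0, 2, 3, 4, 5, 6, 8, 9, 10, 11, 14, 15, 17, 20,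
  22]), (126, [0, 1, 2, 3, 4, 5, 6, 7, 8, 9, 10, 11, 12, 13, 14, 15, 16, 17, 18, 19, 20, 21, 22, 23, 24, 25, 26, 27, 28,
  29, 30, 31, 32, 33, 34, 35], [0, 1, 2, 3, 4, 5, 6, 7, 8, 9, 10, 11, 12, 13, 14, 15, 16, 17, 18, 19, 20, 21, 22, 23,
  24, 25, 26, 27, 28, 29, 30, 31, 32, 33, 34, 35]), (127, [0, 1, 2, 3, 4, 5, 6, 7, 8, 9, 10, 11, 12, 13, 14, 15, 16, 17,
  18, 19, 20, 21, 22, 23, 24, 25, 26, 27, 28, 29, 30, 31, 32, 33, 34, 35], [0, 1, 2, 3, 4, 5, 6, 7, 8, 9, 10, 11, 12,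
  13, 14, 15, 16, 17, 18, 19, 20, 21, 22, 23, 24, 25, 26, 27, 28, 29, 30, 31, 32, 33, 34, 35])]

/-- adjacent: the pairing is `1` or `-1` -/
def adj (r s : ℕ) : Bool := (adjM.getD r 0).testBit s

theorem adj_all : ((List.range 36).all fun r => (List.range 36).all fun s =>
    (adj r s == (r != s && dot (dat.cor r) (dat.gam s) != 0)) &&
      (r == s || dot (dat.cor r) (dat.gam s) == 0 || dot (dat.cor r) (dat.gam s) == 1 ||
        dot (dat.cor r) (dat.gam s) == -1)) = true := by decide +kernel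

/-- the positive roots of a subset of the extended diagram -/
def inP (J r : ℕ) : Bool := ((List.range 6).all fun i => (dat.gam r).getD i 0 == 0 || J.testBit i) ||
  (J.testBit 6 && (List.range 6).all fun i => (dat.gam r).getD i 0 == (dat.gam 35).getD i 0 || J.testBit i)

/-- connected, diameter `≤ 2` -/
def con (Q : List ℕ) : Bool := Q.all fun r => Q.all fun s => r == s || adj r s || Q.any fun u => adj r u && adj u s

/-- number of nodes -/
def cnt (J : ℕ) : ℕ := ((List.range 7).filter fun i => J.testBit i).length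

def chk (e : ℕ × List ℕ × List ℕ) : Bool :=
  (e.2.1 == (List.range 36).filter (inP e.1)) && (e.2.2 == e.2.1.filter fun r => e.2.1.any (adj r)) &&
    (e.1 == 127 || (e.2.2 != [] && con e.2.2) || (decide (2 * e.2.1.length + cnt e.1 ≤ 16) && decide (cnt e.1 ≤ 4)) ||
      (!e.1.testBit 3 && e.2.1.length == 7 && cnt e.1 == 5 &&
        e.2.1.any fun r => !e.2.2.contains r && e.2.1.all fun s => s == r || e.2.2.contains s) ||
      (!e.1.testBit 3 && e.2.1.length == 9 && cnt e.1 == 6))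

theorem tab_ok : tab.all chk = true := by decide +kernel

theorem tab_idx : tab.map (fun e => e.1) = List.range 128 := by decide +kernel

theorem exists_bits : ∀ f : Fin 7 → Bool, ∃ J : Fin 128, ∀ i : Fin 7, (J : ℕ).testBit i = f i := by decide +kernel

/-! ### the form -/

/-- the matrix of the form -/
def Bm6 : Mat 6 := ![![2, 0, -1, 0, 0, 0], ![0, 2, 0, -1, 0, 0], ![-1, 0, 2, -1, 0, 0],
    ![0, -1, -1, 2, -1, 0], ![0, 0, 0, -1, 2, -1], ![0, 0, 0, 0, -1, 2]]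

/-- the invariant form -/
def B6 (x y : Fin 6 → ℤ) : ℤ := bl Bm6 y x

theorem formOK : FormOK chevE6 6 Bm6 := Cfsg.Agent.H931.KC.ok_E6.1

/-- the positive roots -/
def g (r : ℕ) : Fin 6 → ℤ := toF 6 (dat.gam r)

theorem adj_spec {r s : ℕ} (hr : r < 36) (hs : s < 36) :
    (adj r s = true ↔ r ≠ s ∧ dot (dat.cor r) (dat.gam s) ≠ 0) ∧
      (r = s ∨ dot (dat.cor r) (dat.gam s) = 0 ∨ dot (dat.cor r) (dat.gam s) = 1 ∨ dot (dat.cor r) (dat.gam s) = -1) := by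
  have h := adj_all
  rw [List.all_eq_true] at h
  have h1 := h r (List.mem_range.2 hr)
  rw [List.all_eq_true] at h1
  have h2 := h1 s (List.mem_range.2 hs)
  simp only [Bool.and_eq_true, Bool.or_eq_true, beq_iff_eq] at h2
  obtain ⟨h3, h4⟩ := h2
  refine ⟨?_, ?_⟩
  · rw [h3]
    simp only [Bool.and_eq_true, bne_iff_ne]
  · rcases h4 with ((h4 | h4) | h4) | h4
    · exact Or.inl h4
    · exact Or.inr (Or.inl h4)
    · exact Or.inr (Or.inr (Or.inl h4))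
    · exact Or.inr (Or.inr (Or.inr h4))

section

variable {M : CoxeterMatrix (Fin 6)} (hp : IsType chevE6 6 M)

theorem len : dat.rts.length = 36 := by decide +kernel

theorem nrm_ok {r : ℕ} (hr : r < 36) : dot (dat.cor r) (dat.gam r) = 2 := by
  have h := Cfsg.Agent.H378.WL.E6.chkN
  unfold Cfsg.Agent.H378.WL.nrm at h
  simp only [List.all_eq_true, beq_iff_eq] at h
  exact h r (List.mem_range.2 (by rw [len]; exact hr))

theorem cor_len (r : ℕ) : (dat.cor r).length ≤ 6 := cor_length' Cfsg.Agent.H378.E6Dat.chkR r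

include hp in
/-- the form and the coroots -/
theorem B_g {r : ℕ} (hr : r < 36) (x : Fin 6 → ℤ) : B6 x (g r) = dotF 6 (dat.cor r) x := by
  obtain ⟨w, hw⟩ := Cfsg.Agent.H378.Eng.exists_elt M.toCoxeterSystem hp.isCartan (T := dat) rfl Cfsg.Agent.H378.WL.E6.row Cfsg.Agent.H378.E6Dat.chkR r
    (by rw [len]; exact hr)
  have h1 : rep M.toCoxeterSystem hp.isCartan w x = x - dotF 6 (dat.cor r) x • g r := hw x
  have h2 : rep M.toCoxeterSystem hp.isCartan w (g r) = -g r := by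
    have h3 : rep M.toCoxeterSystem hp.isCartan w (g r) = g r - dotF 6 (dat.cor r) (g r) • g r := hw (g r)
    rw [h3]
    unfold g
    rw [dotF_toF (cor_len r), nrm_ok hr, two_smul]
    abel
  have h3 := bl_rep hp formOK w x (g r)
  rw [h1, h2] at h3
  have h4 : bl Bm6 (-g r) (x - dotF 6 (dat.cor r) x • g r) = -(bl Bm6 (g r) x - dotF 6 (dat.cor r) x * bl Bm6 (g r) (g r)) := by
    rw [map_sub, map_zsmul, smul_eq_mul]
    have e : ∀ y, bl Bm6 (-g r) y = - bl Bm6 (g r) y := by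
      intro y
      rw [bl_comm formOK.1, bl_comm formOK.1 y (g r), map_neg]
    rw [e, e]
    ring
  have h5 : bl Bm6 (g r) (g r) = 2 := by
    obtain ⟨v, i, e⟩ := root_gam M.toCoxeterSystem hp.isCartan (T := dat) rfl Cfsg.Agent.H378.WL.E6.row Cfsg.Agent.H378.E6Dat.chkR r
      (by rw [len]; exact hr)
    have e' : g r = rep M.toCoxeterSystem hp.isCartan v (sr i) := e
    rw [e', bl_rep hp formOK, bl_sr_sr]
    revert i
    intro i _ _
    fin_cases i <;> rfl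
  rw [h4, h5] at h3
  show bl Bm6 (g r) x = _
  linarith

include hp in
theorem B_gg {r s : ℕ} (hr : r < 36) : B6 (g s) (g r) = dot (dat.cor r) (dat.gam s) := by
  rw [B_g hp hr, g, dotF_toF (cor_len r)]

include hp in
/-- the roots -/
theorem root_iff_g {a : Fin 6 → ℤ} (ha : IsRoot M.toCoxeterSystem hp.isCartan a) : ∃ r < 36, a = g r ∨ a = -g r := by
  obtain ⟨b, hb, h6⟩ := exists_gam' M.toCoxeterSystem hp.isCartan (T := dat) rfl Cfsg.Agent.H378.WL.E6.row Cfsg.Agent.H378.E6Dat.chkR ha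
  obtain ⟨r, hr, e1, -⟩ := exists_lt_of_mem hb
  rw [← e1] at h6
  exact ⟨r, by rw [← len]; exact hr, h6⟩

include hp in
theorem root_g {r : ℕ} (hr : r < 36) : IsRoot M.toCoxeterSystem hp.isCartan (g r) :=
  root_gam M.toCoxeterSystem hp.isCartan (T := dat) rfl Cfsg.Agent.H378.WL.E6.row Cfsg.Agent.H378.E6Dat.chkR r (by rw [len]; exact hr)

theorem g_nonneg {r : ℕ} (hr : r < 36) : 0 ≤ g r := by
  have h : ((List.range 36).all fun r => (List.range 6).all fun i => decide (0 ≤ (dat.gam r).getD i 0)) = true := by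
    decide +kernel
  rw [List.all_eq_true] at h
  have h1 := h r (List.mem_range.2 hr)
  rw [List.all_eq_true] at h1
  intro i
  have h2 := h1 i (List.mem_range.2 i.2)
  rw [decide_eq_true_iff] at h2
  exact h2

/-- **The invariant form.** -/
theorem sl6 : SL hp B6 := by
  have hneg : ∀ x y, B6 (-x) y = - B6 x y := fun x y => map_neg (bl Bm6 y) x
  have hsymm : ∀ x y, B6 x y = B6 y x := fun x y => bl_comm formOK.1 x y
  have hneg' : ∀ x y, B6 x (-y) = - B6 x y := fun x y => by rw [hsymm, hneg, hsymm]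
  have hinv : ∀ w x y, B6 (rep M.toCoxeterSystem hp.isCartan w x) (rep M.toCoxeterSystem hp.isCartan w y) = B6 x y :=
    fun w x y => bl_rep hp formOK w x y
  refine ⟨hsymm, fun x y z => map_add (bl Bm6 z) x y, hinv, ?_, ?_, ?_⟩
  · rintro a ⟨w, i, rfl⟩
    rw [hinv]
    show bl Bm6 (sr i) (sr i) = 2
    rw [bl_sr_sr]
    fin_cases i <;> rfl
  · intro a b ha hb
    obtain ⟨s, hs, h1⟩ := root_iff_g hp ha
    obtain ⟨r, hr, h2⟩ := root_iff_g hp hb
    rcases (adj_spec hr hs).2 with h3 | h3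
    · subst h3
      rcases h1 with rfl | rfl <;> rcases h2 with rfl | rfl
      · exact Or.inl rfl
      · exact Or.inr (Or.inl (neg_neg _).symm)
      · exact Or.inr (Or.inl rfl)
      · exact Or.inl rfl
    · right; right
      rw [← B_gg hp hr (s := s)] at h3
      rcases h1 with rfl | rfl <;> rcases h2 with rfl | rfl <;> (try simp only [hneg, hneg']) <;> omega
  · intro a b ha hb hab
    obtain ⟨r, hr, h2⟩ := root_iff_g hp hb
    obtain ⟨w, hw⟩ := Cfsg.Agent.H378.Eng.exists_elt M.toCoxeterSystem hp.isCartan (T := dat) rfl Cfsg.Agent.H378.WL.E6.row Cfsg.Agent.H378.E6Dat.chkR r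
      (by rw [len]; exact hr)
    have h1 := ha.act w
    have h3 : rep M.toCoxeterSystem hp.isCartan w a = a - B6 a (g r) • g r := by
      rw [B_g hp hr]
      exact hw a
    rw [h3] at h1
    rcases h2 with rfl | rfl
    · rwa [hab, one_smul] at h1
    · rw [hneg'] at hab
      have h4 : B6 a (g r) = -1 := by omega
      rw [h4, neg_one_smul] at h1
      exact h1

end

/-! ### the table -/

/-- number of nodes -/
def rk (c : Fin 6 → ℕ) (c0 : ℕ) : ℕ := (Finset.univ.filter fun i : Fin 6 => c i = 0).card + if c0 = 0 then 1 else 0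

theorem cnt_ok : ∀ J : Fin 128, cnt J = (Finset.univ.filter fun i : Fin 6 => (J : ℕ).testBit i = true).card +
    if (J : ℕ).testBit 6 = true then 1 else 0 := by decide +kernel

theorem gam35 : ∀ i : Fin 6, (dat.gam 35).getD i 0 = Cfsg.Agent.H931.KC.hr chevE6 6 i := by decide +kernel

theorem bits_127 : ∀ J : Fin 128, (J : ℕ) = 127 → ∀ i : Fin 7, (J : ℕ).testBit i = true := by decide +kernel

/-- **The table.** -/
theorem exists_tab (c : Fin 6 → ℕ) (c0 : ℕ) (hne : ¬ (c0 = 0 ∧ ∀ i, c i = 0)) : ∃ P Q : List ℕ, P.Nodup ∧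
    (∀ r, r ∈ P ↔ r < 36 ∧ ((∀ i, g r i ≠ 0 → c i = 0) ∨
      (c0 = 0 ∧ ∀ i, g r i ≠ Cfsg.Agent.H931.KC.hr chevE6 6 i → c i = 0))) ∧
    (∀ r, r ∈ Q ↔ r ∈ P ∧ ∃ s ∈ P, adj r s = true) ∧
    ((Q ≠ [] ∧ ∀ r ∈ Q, ∀ s ∈ Q, r = s ∨ adj r s = true ∨ ∃ u ∈ Q, adj r u = true ∧ adj u s = true) ∨
      (2 * P.length + rk c c0 ≤ 16 ∧ rk c c0 ≤ 4) ∨
      (c 3 ≠ 0 ∧ P.length = 7 ∧ rk c c0 = 5 ∧ ∃ r ∈ P, r ∉ Q ∧ ∀ s ∈ P, s = r ∨ s ∈ Q) ∨
      (c 3 ≠ 0 ∧ P.length = 9 ∧ rk c c0 = 6)) := by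
  obtain ⟨J, hJ⟩ := exists_bits fun i => if h : (i : ℕ) < 6 then decide (c ⟨i, h⟩ = 0) else decide (c0 = 0)
  have hb : ∀ i : Fin 6, (J : ℕ).testBit i = decide (c i = 0) := by
    intro i
    have h1 := hJ ⟨i, by omega⟩
    rw [dif_pos i.2] at h1
    exact h1
  have h6 : (J : ℕ).testBit 6 = decide (c0 = 0) := by
    have h1 := hJ 6
    rw [dif_neg (by decide)] at h1
    exact h1
  have hrk : cnt J = rk c c0 := by
    rw [cnt_ok, rk, h6]
    congr 1
    · congr 1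
      refine Finset.filter_congr fun i _ => ?_
      rw [hb, decide_eq_true_iff]
    · simp only [decide_eq_true_eq]
  have h127 : (J : ℕ) ≠ 127 := by
    intro h
    have h1 := bits_127 J h
    apply hne
    constructor
    · have h2 := h1 6
      change (J : ℕ).testBit 6 = true at h2
      rw [h6, decide_eq_true_iff] at h2
      exact h2
    · intro i
      have h2 := h1 ⟨i, by omega⟩
      change (J : ℕ).testBit i = true at h2
      rw [hb, decide_eq_true_iff] at h2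
      exact h2
  have hlt : (J : ℕ) < tab.length := by
    have : tab.length = 128 := by decide +kernel
    rw [this]
    exact J.2
  have he : (tab[(J : ℕ)]).1 = (J : ℕ) := by
    have h1 := tab_idx
    have h2 : (tab.map fun e => e.1)[(J : ℕ)]'(by rw [List.length_map]; exact hlt) = (J : ℕ) := by
      simp only [h1, List.getElem_range]
    rwa [List.getElem_map] at h2
  have hc := tab_ok
  rw [List.all_eq_true] at hc
  have h1 := hc _ (List.getElem_mem hlt)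
  unfold chk at h1
  rw [he] at h1
  set P := (tab[(J : ℕ)]).2.1 with hP
  set Q := (tab[(J : ℕ)]).2.2 with hQ
  simp only [Bool.and_eq_true, Bool.or_eq_true, beq_iff_eq, decide_eq_true_eq, bne_iff_ne, Bool.not_eq_true'] at h1
  obtain ⟨⟨h2, h3⟩, h4⟩ := h1
  have hmem : ∀ r, r ∈ P ↔ r < 36 ∧ ((∀ i, g r i ≠ 0 → c i = 0) ∨
      (c0 = 0 ∧ ∀ i, g r i ≠ Cfsg.Agent.H931.KC.hr chevE6 6 i → c i = 0)) := by
    intro r
    rw [h2, List.mem_filter, List.mem_range]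
    refine and_congr_right fun hr => ?_
    unfold inP
    simp only [Bool.or_eq_true, Bool.and_eq_true, List.all_eq_true, List.mem_range, beq_iff_eq]
    refine or_congr ?_ (and_congr ?_ ?_)
    · constructor
      · intro h i hi
        rcases h i i.2 with h | h
        · exact absurd h hi
        · rw [hb, decide_eq_true_iff] at h
          exact h
      · intro h i hi
        by_cases h0 : (dat.gam r).getD i 0 = 0
        · exact Or.inl h0
        · right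
          have h5 := h ⟨i, hi⟩ h0
          rw [show (J : ℕ).testBit i = (J : ℕ).testBit ((⟨i, hi⟩ : Fin 6) : ℕ) from rfl, hb, decide_eq_true_iff]
          exact h5
    · rw [h6, decide_eq_true_iff]
    · constructor
      · intro h i hi
        rcases h i i.2 with h | h
        · rw [gam35] at h
          exact absurd h hi
        · rw [hb, decide_eq_true_iff] at h
          exact h
      · intro h i hi
        by_cases h0 : (dat.gam r).getD i 0 = (dat.gam 35).getD i 0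
        · exact Or.inl h0
        · right
          have h5 := h ⟨i, hi⟩ (by rw [← gam35]; exact h0)
          rw [show (J : ℕ).testBit i = (J : ℕ).testBit ((⟨i, hi⟩ : Fin 6) : ℕ) from rfl, hb, decide_eq_true_iff]
          exact h5
  have hbit3 : (J : ℕ).testBit 3 = false → c 3 ≠ 0 := by
    intro h
    have h5 := hb 3
    change (J : ℕ).testBit 3 = _ at h5
    rw [h] at h5
    exact of_decide_eq_false h5.symm
  refine ⟨P, Q, ?_, hmem, ?_, ?_⟩
  · rw [h2]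
    exact (List.nodup_range (n := 36)).filter _
  · intro r
    rw [h3, List.mem_filter, List.any_eq_true]
  · rcases h4 with (((h4 | h4) | h4) | h4) | h4
    · exact absurd h4 h127
    · left
      refine ⟨h4.1, ?_⟩
      have h5 := h4.2
      unfold con at h5
      simp only [List.all_eq_true, Bool.or_eq_true, beq_iff_eq, List.any_eq_true, Bool.and_eq_true] at h5
      intro r hr s hs
      rcases h5 r hr s hs with (h6 | h6) | h6
      · exact Or.inl h6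
      · exact Or.inr (Or.inl h6)
      · exact Or.inr (Or.inr h6)
    · right; left
      rw [hrk] at h4
      exact h4
    · right; right; left
      rw [hrk] at h4
      obtain ⟨⟨⟨h5, h6⟩, h7⟩, h8⟩ := h4
      rw [List.any_eq_true] at h8
      obtain ⟨r, hr, h9⟩ := h8
      simp only [Bool.and_eq_true, Bool.not_eq_true', List.all_eq_true, Bool.or_eq_true, beq_iff_eq,
        List.contains_iff_mem] at h9
      refine ⟨hbit3 h5, h6, h7, r, hr, ?_, h9.2⟩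
      intro h10
      have h11 : List.contains Q r = true := List.contains_iff_mem.2 h10
      rw [h9.1] at h11
      exact Bool.false_ne_true h11
    · right; right; right
      rw [hrk] at h4
      exact ⟨hbit3 h4.1.1, h4.1.2, h4.2⟩

end Cfsg.Agent.H56.RG.E6
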